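import Cfsg.Agent.H826.Rg.Lin
import Cfsg.Agent.H449.Reg.Semi

/-!
# S3691, residual cases with the stabiliser of a nonsingular vector (helper826)

`T` normal in `G`, `e : T ≃* E Q / Z(E Q)`, `Fac T X Y`.
* `preE e X` : the preimage of `X ∩ T` in `E Q`;
* `semireg` : if `X` contains the Siegel transformations of `v^⊥`, `Q v ≠ 0`, then `preE e Y` is semiregular on the vectors of
  norm `Q v`;
* `Gh e Y` : the group of the semisimilitudes which induce automorphisms coming from `Y`; `exists_gh` : if `X` fixes `⟨v⟩`, it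
  is transitive on the vectors of norm `Q v`; `derived_le` : its third derived subgroup is contained in `preE e Y`.
-/

set_option autoImplicit false
set_option linter.unusedSectionVars false

namespace Cfsg.Agent.H826.Rg

open QuadraticMap Module
open Cfsg.Agent.LieClassical.OrthCore Cfsg.Agent.LieClassical.OrthTrans
open Cfsg.Agent.ClassicalGeometry.OrthSemi Cfsg.Agent.H454.Reg Cfsg.Agent.H449.Reg
open scoped commutatorElement

universe u

section act

variable {G : Type u} [Group G] {T : Subgroup G} [T.Normal]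
variable {F V : Type*} [Field F] [AddCommGroup V] [Module F V] {Q : QuadraticForm F V}

/-- the preimage of `X ∩ T` in `E Q` -/
def preE (e : T ≃* (↥(E Q) ⧸ Subgroup.center ↥(E Q))) (X : Subgroup G) : Subgroup (V ≃ₗ[F] V) where
  carrier := {g | ∃ hg : g ∈ E Q, ((e.symm (QuotientGroup.mk ⟨g, hg⟩) : T) : G) ∈ X}
  mul_mem' := by
    rintro a b ⟨ha, ha'⟩ ⟨hb, hb'⟩
    refine ⟨(E Q).mul_mem ha hb, ?_⟩
    have h1 : (⟨a * b, (E Q).mul_mem ha hb⟩ : ↥(E Q)) = ⟨a, ha⟩ * ⟨b, hb⟩ := rfl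
    rw [h1, QuotientGroup.mk_mul, map_mul]
    exact X.mul_mem ha' hb'
  one_mem' := by
    refine ⟨(E Q).one_mem, ?_⟩
    have h1 : (⟨1, (E Q).one_mem⟩ : ↥(E Q)) = 1 := rfl
    rw [h1, QuotientGroup.mk_one, map_one]
    exact X.one_mem
  inv_mem' := by
    rintro a ⟨ha, ha'⟩
    refine ⟨(E Q).inv_mem ha, ?_⟩
    have h1 : (⟨a⁻¹, (E Q).inv_mem ha⟩ : ↥(E Q)) = ⟨a, ha⟩⁻¹ := rfl
    rw [h1, QuotientGroup.mk_inv, map_inv]
    exact X.inv_mem ha'

variable {e : T ≃* (↥(E Q) ⧸ Subgroup.center ↥(E Q))} {X Y : Subgroup G}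

theorem mem_preE {g : V ≃ₗ[F] V} (hg : g ∈ E Q) :
    g ∈ preE e X ↔ ((e.symm (QuotientGroup.mk ⟨g, hg⟩) : T) : G) ∈ X := ⟨fun h => h.2, fun h => ⟨hg, h⟩⟩

theorem preE_le_E : preE e X ≤ E Q := fun _ hg => hg.1

theorem preE_le_O : preE e X ≤ O Q := fun _ hg => E_le_O hg.1

/-- a central element of `E Q` with a nonzero fixed vector is trivial -/
theorem eq_one_of_central (hG : Good Q) {g : V ≃ₗ[F] V} (hg : g ∈ E Q)
    (hc : (⟨g, hg⟩ : ↥(E Q)) ∈ Subgroup.center ↥(E Q)) {u : V} (hu : u ≠ 0) (hgu : g u = u) : g = 1 := by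
  have h1 : conjE Q (lg ⟨g, hg⟩) = 1 := by
    ext x v
    obtain ⟨v, rfl⟩ := (lg (Q := Q) ⟨g, hg⟩).1.surjective v
    rw [coe_conjE, conjLin_apply']
    have h2 := congrArg Subtype.val (Subgroup.mem_center_iff.1 hc x)
    have h3 := congrArg (fun z : V ≃ₗ[F] V => z v) h2
    exact h3.symm
  obtain ⟨a, -, ha⟩ := exists_scalar_of_conjE hG _ h1
  have h2 : u = a • u := by
    have h3 := ha u
    rw [lg_apply] at h3
    rw [← h3]
    exact hgu.symm
  have ha1 : a = 1 := by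
    have h3 : (1 - a) • u = 0 := by rw [sub_smul, one_smul, ← h2, sub_self]
    exact (sub_eq_zero.1 ((smul_eq_zero.1 h3).resolve_right hu)).symm
  ext v
  have h3 := ha v
  rw [lg_apply, ha1, one_smul] at h3
  exact h3

/-- **semiregularity** -/
theorem semireg [Finite G] [Finite F] [FiniteDimensional F V] (hG : Good Q) (hd : 7 ≤ finrank F V) (hf : Fac T X Y) {v : V}
    (hv : Q v ≠ 0) (hs : Sg Q v ≤ preE e X) {g : V ≃ₗ[F] V} (hg : g ∈ preE e Y) {u : V} (hu : Q u = Q v) (hgu : g u = u) :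
    g = 1 := by
  have hu0 : u ≠ 0 := by
    rintro rfl
    rw [QuadraticMap.map_zero] at hu
    exact hv hu.symm
  have hv0 : v ≠ 0 := by
    rintro rfl
    exact hv (QuadraticMap.map_zero Q)
  obtain ⟨k, hk, hku⟩ := hG.trans_norm hu0 hv0 hu
  have hgE := preE_le_E hg
  have h1 : k * g * k⁻¹ ∈ E Q := (E Q).mul_mem ((E Q).mul_mem hk hgE) ((E Q).inv_mem hk)
  have h2 : (k * g * k⁻¹) v = v := by
    show k (g (k.symm v)) = v
    have h3 : k.symm v = u := by rw [LinearEquiv.symm_apply_eq, hku]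
    rw [h3, hgu, hku]
  have h3 := hs (mem_Sg_of_fix hG.nondeg hd hv h1 h2)
  rw [mem_preE h1] at h3
  have h4 := (mem_preE hgE).1 hg
  set t := (e.symm (QuotientGroup.mk ⟨g, hgE⟩) : T) with ht
  set s := (e.symm (QuotientGroup.mk ⟨k, hk⟩) : T) with hs'
  have h5 : (e.symm (QuotientGroup.mk ⟨k * g * k⁻¹, h1⟩) : T) = s * t * s⁻¹ := by
    have e1 : (⟨k * g * k⁻¹, h1⟩ : ↥(E Q)) = ⟨k, hk⟩ * ⟨g, hgE⟩ * ⟨k, hk⟩⁻¹ := rfl
    rw [e1, QuotientGroup.mk_mul, QuotientGroup.mk_mul, QuotientGroup.mk_inv, map_mul, map_mul, map_inv]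
  rw [h5] at h3
  have h6 : (t : G) = 1 := by
    refine hf.symm.not_conj h4 (s : G) ?_
    exact h3
  have h7 : t = 1 := Subtype.ext h6
  have h8 : (QuotientGroup.mk ⟨g, hgE⟩ : ↥(E Q) ⧸ Subgroup.center ↥(E Q)) = 1 := by
    rw [← e.apply_symm_apply (QuotientGroup.mk ⟨g, hgE⟩), ← ht, h7, map_one]
  rw [QuotientGroup.eq_one_iff] at h8
  exact eq_one_of_central hG hgE h8 hu0 hgu

/-! ### the semisimilitudes coming from `Y` -/

/-- the semisimilitudes which induce automorphisms coming from `Y` -/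
def Gh (e : T ≃* (↥(E Q) ⧸ Subgroup.center ↥(E Q))) (Y : Subgroup G) : Subgroup (Gam Q) :=
  (Y.map (autP e)).comap (Psi Q)

theorem mem_Gh {M : Gam Q} : M ∈ Gh e Y ↔ ∃ y ∈ Y, autP e y = Psi Q M := Iff.rfl

theorem autP_injective (hc : Subgroup.centralizer (T : Set G) = ⊥) : Function.Injective (autP e) := by
  rw [injective_iff_map_eq_one]
  intro g hg
  have h1 : g ∈ Subgroup.centralizer (T : Set G) := by
    rw [Subgroup.mem_centralizer_iff]
    intro t ht
    have h2 := congrArg (fun z : MulAut _ => z (e ⟨t, ht⟩)) hg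
    simp only [MulAut.one_apply] at h2
    rw [autP_apply] at h2
    have h3 := congrArg Subtype.val (e.injective h2)
    rw [MulAut.conjNormal_apply] at h3
    exact (mul_inv_eq_iff_eq_mul.1 h3).symm
  rw [hc, Subgroup.mem_bot] at h1
  exact h1

theorem lg_mem_iff (hc : Subgroup.centralizer (T : Set G) = ⊥) (g : ↥(E Q)) : lg g ∈ Gh e Y ↔ (g : V ≃ₗ[F] V) ∈ preE e Y := by
  rw [mem_preE g.2, mem_Gh]
  have h1 : autP e ((e.symm (QuotientGroup.mk g) : T) : G) = Psi Q (lg g) := by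
    rw [autP_T, e.apply_symm_apply, Psi_lg]
  constructor
  · rintro ⟨y, hy, h2⟩
    rw [← h1] at h2
    have h3 := autP_injective hc h2
    rw [← h3]; exact hy
  · intro h
    exact ⟨_, h, h1⟩

/-- scalars -/
def sc (Q : QuadraticForm F V) (a : Fˣ) : Gam Q :=
  ⟨{ toFun := fun v => (a : F) • v
     invFun := fun v => ((a⁻¹ : Fˣ) : F) • v
     left_inv := fun v => by
      show ((a⁻¹ : Fˣ) : F) • (a : F) • v = v
      rw [smul_smul, Units.inv_mul, one_smul]
     right_inv := fun v => by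
      show (a : F) • ((a⁻¹ : Fˣ) : F) • v = v
      rw [smul_smul, Units.mul_inv, one_smul] }, RingEquiv.refl F, (a : F) * a,
   ⟨mul_ne_zero a.ne_zero a.ne_zero, fun u v => smul_add _ _ _, fun b v => by
      show (a : F) • b • v = b • (a : F) • v
      rw [smul_comm], fun v => by
      show Q ((a : F) • v) = _
      rw [QuadraticMap.map_smul, smul_eq_mul]
      rfl⟩⟩

theorem sc_apply (a : Fˣ) (v : V) : (sc Q a).1 v = (a : F) • v := rfl

theorem Psi_sc (a : Fˣ) : Psi Q (sc Q a) = 1 := by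
  have h1 : conjE Q (sc Q a) = 1 := by
    ext x v
    obtain ⟨v, rfl⟩ := (sc Q a).1.surjective v
    rw [coe_conjE, conjLin_apply']
    show (a : F) • (x : V ≃ₗ[F] V) v = (x : V ≃ₗ[F] V) ((a : F) • v)
    rw [map_smul]
  ext x
  induction x using QuotientGroup.induction_on with
  | H k => rw [Psi_mk, h1]; rfl

theorem sc_mem (a : Fˣ) : sc Q a ∈ Gh e Y := ⟨1, Y.one_mem, by rw [map_one, Psi_sc]⟩

/-- **transitivity** -/
theorem exists_gh [Finite G] (hG : Good Q) (h : Ind e) (hf : Fac T X Y) {v : V} (hv : Q v ≠ 0)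
    (hfix : ∀ x ∈ X, act h x (F ∙ v) = F ∙ v) {u u' : V} (hu : Q u = Q v) (hu' : Q u' = Q v) :
    ∃ M ∈ Gh e Y, M.1 u = u' := by
  have hv0 : v ≠ 0 := by
    rintro rfl
    exact hv (QuadraticMap.map_zero Q)
  have key : ∀ w : V, Q w = Q v → ∃ M ∈ Gh e Y, M.1 v = w := by
    intro w hw
    have hw0 : w ≠ 0 := by
      rintro rfl
      rw [QuadraticMap.map_zero] at hw
      exact hv hw.symm
    obtain ⟨g, hg, hgv⟩ := hG.trans_norm hv0 hw0 hw.symm
    obtain ⟨y, hy, x, hx, hyx⟩ := hf.symm.exists_mul ((e.symm (QuotientGroup.mk ⟨g, hg⟩) : T) : G)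
    have h1 : act h ((e.symm (QuotientGroup.mk ⟨g, hg⟩) : T) : G) (F ∙ v) = (F ∙ v).map (g : V →ₗ[F] V) :=
      act_T hG h (x := ⟨g, hg⟩) (by rw [e.apply_symm_apply]) _
    rw [← hyx, act_mul hG, hfix x hx] at h1
    obtain ⟨M, hM⟩ := h y
    rw [act_of hG h hM] at h1
    have h2 : M.1 v ∈ (F ∙ v).map (g : V →ₗ[F] V) := by
      rw [← h1]
      exact ⟨v, Submodule.mem_span_singleton_self v, rfl⟩
    obtain ⟨z, hz, hzM⟩ := h2
    obtain ⟨a, rfl⟩ := Submodule.mem_span_singleton.1 hz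
    have h3 : M.1 v = a • w := by
      rw [← hzM, map_smul]
      show a • g v = a • w
      rw [hgv]
    have ha : a ≠ 0 := by
      rintro rfl
      rw [zero_smul] at h3
      obtain ⟨σ, c, hS⟩ := M.2
      have h4 : M.1 0 = M.1 v := by rw [hS.map_zero, h3]
      exact hv0 (M.1.injective h4).symm
    refine ⟨sc Q (Units.mk0 a ha)⁻¹ * M, (Gh e Y).mul_mem (sc_mem _) ⟨y, hy, hM.symm⟩, ?_⟩
    show (sc Q (Units.mk0 a ha)⁻¹).1 (M.1 v) = w
    have h5 : (((Units.mk0 a ha)⁻¹ : Fˣ) : F) * a = 1 := by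
      rw [Units.val_inv_eq_inv_val, Units.val_mk0, inv_mul_cancel₀ ha]
    rw [h3, sc_apply, smul_smul, h5, one_smul]
  obtain ⟨M, hM, hMv⟩ := key u hu
  obtain ⟨M', hM', hMv'⟩ := key u' hu'
  refine ⟨M' * M⁻¹, (Gh e Y).mul_mem hM' ((Gh e Y).inv_mem hM), ?_⟩
  show M'.1 (M.1.symm u) = u'
  rw [← hMv, Equiv.symm_apply_apply, hMv']

/-! ### the derived series of the group of semisimilitudes -/

theorem ringAut_comm [Finite F] (σ τ : F ≃+* F) (x : F) : σ (τ x) = τ (σ x) := by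
  obtain ⟨γ, hγ⟩ := IsCyclic.exists_generator (α := Fˣ)
  obtain ⟨i, hi⟩ := Subgroup.mem_zpowers_iff.1 (hγ (Units.map (σ : F →* F) γ))
  have key : ∀ z : Fˣ, Units.map (σ : F →* F) z = z ^ i := by
    intro z
    obtain ⟨k, rfl⟩ := Subgroup.mem_zpowers_iff.1 (hγ z)
    rw [map_zpow, ← hi, ← zpow_mul, ← zpow_mul, mul_comm]
  by_cases hx : x = 0
  · rw [hx, map_zero, map_zero, map_zero]
  have h1 := congrArg Units.val (key (Units.map (τ : F →* F) (Units.mk0 x hx)))
  rw [← map_zpow, ← key] at h1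
  exact h1

/-- `E Q` in the group of semisimilitudes -/
def lgH (Q : QuadraticForm F V) : ↥(E Q) →* Gam Q where
  toFun := lg
  map_one' := rfl
  map_mul' _ _ := rfl

/-- the semisimilitudes which are linear -/
def K1 (Q : QuadraticForm F V) : Subgroup (Gam Q) where
  carrier := {M | ∃ c, IsSS Q (RingEquiv.refl F) c M.1}
  mul_mem' := by
    rintro M N ⟨c, hM⟩ ⟨d, hN⟩
    exact ⟨_, hM.mul hN⟩
  one_mem' := ⟨1, one_ne_zero, fun _ _ => rfl, fun _ _ => rfl, fun _ => by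
    rw [one_mul]; rfl⟩
  inv_mem' := by
    rintro M ⟨c, hM⟩
    exact ⟨_, hM.inv⟩

/-- the isometries -/
def K2 (Q : QuadraticForm F V) : Subgroup (Gam Q) where
  carrier := {M | IsSS Q (RingEquiv.refl F) 1 M.1}
  mul_mem' := by
    rintro M N hM hN
    have h1 := IsSS.mul hM hN
    have h2 : (1 : F) * (RingEquiv.refl F) 1 = 1 := by rw [map_one, one_mul]
    rw [h2] at h1
    exact h1
  one_mem' := ⟨one_ne_zero, fun _ _ => rfl, fun _ _ => rfl, fun _ => by
    rw [one_mul]; rfl⟩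
  inv_mem' := by
    rintro M hM
    have h1 := IsSS.inv hM
    have h2 : (RingEquiv.refl F).symm (1 : F)⁻¹ = 1 := by rw [inv_one, map_one]
    rw [h2] at h1
    exact h1

/-- an isometry as a linear map -/
def toL (M : Gam Q) (h : IsSS Q (RingEquiv.refl F) 1 M.1) : V ≃ₗ[F] V :=
  { toFun := M.1
    invFun := M.1.symm
    left_inv := M.1.left_inv
    right_inv := M.1.right_inv
    map_add' := h.add
    map_smul' := h.smul }

theorem toL_mem (M : Gam Q) (h : IsSS Q (RingEquiv.refl F) 1 M.1) : toL M h ∈ O Q := by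
  intro v
  have h1 := h.form v
  rw [one_mul] at h1
  exact h1

theorem derived_le [Finite F] (hG : Good Q) : derivedSeries (Gam Q) 3 ≤ (lgH Q).range := by
  have h1 : derivedSeries (Gam Q) 1 ≤ K1 Q := by
    rw [derivedSeries_succ, derivedSeries_zero, Subgroup.commutator_le]
    rintro M - N -
    obtain ⟨σ, c, hM⟩ := M.2
    obtain ⟨τ, d, hN⟩ := N.2
    have h3 := ((hM.mul hN).mul hM.inv).mul hN.inv
    have h4 : (τ.symm).trans ((σ.symm).trans (τ.trans σ)) = RingEquiv.refl F := by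
      ext x
      show σ (τ (σ.symm (τ.symm x))) = x
      rw [ringAut_comm σ τ, RingEquiv.apply_symm_apply, RingEquiv.apply_symm_apply]
    rw [h4] at h3
    exact ⟨_, h3⟩
  have h2 : derivedSeries (Gam Q) 2 ≤ K2 Q := by
    rw [derivedSeries_succ]
    refine (Subgroup.commutator_mono h1 h1).trans ?_
    rw [Subgroup.commutator_le]
    rintro M ⟨c, hM⟩ N ⟨d, hN⟩
    have h3 := ((hM.mul hN).mul hM.inv).mul hN.inv
    have hc := hM.ne
    have hd := hN.ne
    refine ⟨one_ne_zero, h3.add, h3.smul, fun v => ?_⟩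
    have h4 := h3.form v
    show Q ((M.1 * N.1 * M.1⁻¹ * N.1⁻¹) v) = 1 * Q v
    rw [h4]
    show c * d * c⁻¹ * d⁻¹ * Q v = 1 * Q v
    field_simp
  rw [derivedSeries_succ]
  refine (Subgroup.commutator_mono h2 h2).trans ?_
  rw [Subgroup.commutator_le]
  intro M hM N hN
  have h3 : ⁅toL M hM, toL N hN⁆ ∈ E Q := by
    rw [← hG.commutator_eq_E]
    exact Subgroup.commutator_mem_commutator (toL_mem M hM) (toL_mem N hN)
  exact ⟨⟨_, h3⟩, rfl⟩

end act

end Cfsg.Agent.H826.Rg
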