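import Cfsg.Agent.H160.QSpin
import Cfsg.Agent.ClassicalGeometry.OrthDickson

/-!
# S3691, residual cases: the stabiliser of a nonsingular vector in `Ω(Q)` (helper826)

* `mem_closure_of_res` : an isometry `g` with `(g - 1) V ≤ U` is a product of reflections and Siegel transformations
  with vectors of `U`;
* `St Q v` : the stabiliser of `v` in `O Q`; `Sg Q v` : the group generated by the Siegel transformations with vectors of
  `v^⊥`; `mem_Sg_of_fix` : for `Q v ≠ 0` and `dim V ≥ 7`, `g ∈ E Q`, `g v = v` imply `g ∈ Sg Q v`;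
  `Sg_le_comm` : `Sg Q v ≤ ⁅St Q v, St Q v⁆`.
-/

set_option autoImplicit false

namespace Cfsg.Agent.H826.Rg

open QuadraticMap Module
open Cfsg.Agent.LieClassical.OrthCore Cfsg.Agent.LieClassical.OrthTrans
open Cfsg.Agent.LieClassical.OrthFinite (exists_sing_perp good_of_finite isometryEquiv isometryEquiv_apply)
open Cfsg.Agent.H160.QSpin

section gen

variable {F V : Type*} [Field F] [AddCommGroup V] [Module F V] {Q : QuadraticForm F V}

/-- reflections and Siegel transformations with vectors of `U` -/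
def genSet (Q : QuadraticForm F V) (U : Submodule F V) : Set (V ≃ₗ[F] V) :=
  {g | ∃ (a : V) (ha : Q a ≠ 0), a ∈ U ∧ g = refl Q a ha} ∪
    {g | ∃ (u w : V) (hu : Q u = 0) (hw : polar Q u w = 0), u ∈ U ∧ w ∈ U ∧ g = siegel Q u w hu hw}

/-- **generation**, with control of the residual space -/
theorem mem_closure_of_res [FiniteDimensional F V] (hQ : Nondeg Q) (U : Submodule F V) {g : V ≃ₗ[F] V} (hg : g ∈ O Q)
    (hU : ∀ w, g w - w ∈ U) : g ∈ Subgroup.closure (genSet Q U) := by
  have key : ∀ (n : ℕ) (g : V ≃ₗ[F] V), g ∈ O Q → (∀ w, g w - w ∈ U) →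
      Module.finrank F V - Module.finrank F (LinearMap.ker (g.toLinearMap - LinearMap.id)) = n →
      g ∈ Subgroup.closure (genSet Q U) := by
    intro n
    induction n using Nat.strong_induction_on with
    | _ n ih =>
      intro g hg hU hn
      by_cases hone : ∀ w, g w = w
      · have : g = 1 := by ext w; exact hone w
        rw [this]
        exact Subgroup.one_mem _
      push Not at hone
      -- key step: enough to find `r` in the group with `r * g` fixing more
      have step : ∀ (r : V ≃ₗ[F] V), r ∈ O Q →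
          r ∈ Subgroup.closure (genSet Q U) → (∀ x, r x - x ∈ U) →
          (∀ s, g s = s → r s = s) → (∃ w, g w ≠ w ∧ r (g w) = w) →
          g ∈ Subgroup.closure (genSet Q U) := by
        intro r hrO hr hrU hfix ⟨w, hw, hrw⟩
        have hlt : LinearMap.ker (g.toLinearMap - LinearMap.id) <
            LinearMap.ker ((r * g).toLinearMap - LinearMap.id) := by
          refine lt_of_le_of_ne ?_ ?_
          · intro s hs
            rw [LinearMap.mem_ker, LinearMap.sub_apply, sub_eq_zero] at hs ⊢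
            have hs' : g s = s := hs
            show r (g s) = s
            rw [hs', hfix s hs']
          · intro heq
            have : w ∈ LinearMap.ker ((r * g).toLinearMap - LinearMap.id) := by
              rw [LinearMap.mem_ker, LinearMap.sub_apply, sub_eq_zero]
              exact hrw
            rw [← heq, LinearMap.mem_ker, LinearMap.sub_apply, sub_eq_zero] at this
            exact hw this
        have hlt' := Submodule.finrank_lt_finrank_of_lt hlt
        have hle := Submodule.finrank_le (LinearMap.ker ((r * g).toLinearMap - LinearMap.id))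
        have hmem := ih _ (by omega) (r * g) ((O Q).mul_mem hrO hg) (fun x => by
          have h1 : (r * g) x - x = (r (g x) - g x) + (g x - x) := by
            rw [sub_add_sub_cancel]; rfl
          rw [h1]
          exact U.add_mem (hrU _) (hU x)) rfl
        have : g = r⁻¹ * (r * g) := by group
        rw [this]
        exact Subgroup.mul_mem _ (Subgroup.inv_mem _ hr) hmem
      by_cases hsing : ∃ w, Q (g w - w) ≠ 0
      · obtain ⟨w, hw⟩ := hsing
        refine step (refl Q (g w - w) hw) (refl_mem_O hw)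
          (Subgroup.subset_closure (Or.inl ⟨_, hw, hU w, rfl⟩)) ?_ ?_ ⟨w, ?_, ?_⟩
        · intro x
          rw [refl_apply, sub_sub_cancel_left]
          exact U.neg_mem (U.smul_mem _ (hU w))
        · intro s hs
          have h1 : polar Q (g w - w) s = 0 := by
            rw [polar_sub_left]
            nth_rewrite 1 [← hs]
            rw [polar_map hg, sub_self]
          rw [refl_apply, h1, mul_zero, zero_smul, sub_zero]
        · intro h
          rw [h, sub_self, QuadraticMap.map_zero] at hw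
          exact hw rfl
        · exact refl_sub_apply (mem_O.1 hg w).symm hw
      · push Not at hsing
        obtain ⟨w, hw⟩ := hone
        have hz : g w - w ≠ 0 := sub_ne_zero.2 hw
        obtain ⟨v, hv⟩ := hQ.exists_polar_eq hz (-1)
        have hzs : Q (g w - w) = 0 := hsing w
        have hzy : polar Q (g w - w) (g v - v) = 0 := by
          have h1 := QuadraticMap.map_add Q (g w - w) (g v - v)
          have h2 : g w - w + (g v - v) = g (w + v) - (w + v) := by
            rw [map_add]; abel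
          rw [h2, hsing, hsing, hsing] at h1
          simpa using h1.symm
        have hgwy : polar Q (g v - v) (g w) = 1 := by
          rw [polar_sub_left, polar_map hg, ← neg_inj, ← hv, polar_sub_left, polar_comm Q v w,
            polar_comm Q v (g w)]
          ring
        have hgwz : polar Q (g w - w) (g w) = 0 := by
          have e := QuadraticMap.map_add Q w (g w - w)
          rw [add_sub_cancel, mem_O.1 hg, hzs] at e
          have e2 : polar Q w (g w - w) = 0 := by linear_combination -e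
          have e3 : polar Q (g w - w) (g w) = polar Q w (g w - w) +
              polar Q (g w - w) (g w - w) := by
            rw [polar_comm Q w, ← polar_add_right, add_sub_cancel]
          rw [e3, e2, polar_self', hzs]
          ring
        refine step (siegel Q (g w - w) (g v - v) hzs hzy) (siegel_mem_O hzs hzy)
          (Subgroup.subset_closure (Or.inr ⟨_, _, hzs, hzy, hU w, hU v, rfl⟩)) ?_ ?_ ⟨w, hw, ?_⟩
        · intro x
          have h1 : siegel Q (g w - w) (g v - v) hzs hzy x - x =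
              polar Q (g w - w) x • (g v - v) - (polar Q (g v - v) x + Q (g v - v) * polar Q (g w - w) x) • (g w - w) := by
            rw [siegel_apply]
            module
          rw [h1]
          exact U.sub_mem (U.smul_mem _ (hU v)) (U.smul_mem _ (hU w))
        · intro s hs
          have h1 : ∀ x, polar Q (g x - x) s = 0 := by
            intro x
            rw [polar_sub_left]
            nth_rewrite 1 [← hs]
            rw [polar_map hg, sub_self]
          rw [siegel_apply, h1, h1]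
          simp
        · rw [siegel_apply, hgwz, hgwy]
          simp
  exact key _ g hg hU rfl

/-- separation -/
theorem exists_sep [FiniteDimensional F V] (hQ : Nondeg Q) {U : Submodule F V} {x : V} (hx : x ∉ U) :
    ∃ y, (∀ u ∈ U, polar Q y u = 0) ∧ polar Q y x = 1 := by
  obtain ⟨f, hf, hfU⟩ := Submodule.exists_dual_map_eq_bot_of_notMem hx inferInstance
  have hinj : Function.Injective (polarBilin Q : V →ₗ[F] Module.Dual F V) := by
    rw [injective_iff_map_eq_zero]
    intro y hy
    exact hQ y fun z => by rw [← polarBilin_apply_apply, hy]; rfl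
  have hsurj : Function.Surjective (polarBilin Q : V →ₗ[F] Module.Dual F V) :=
    (LinearMap.injective_iff_surjective_of_finrank_eq_finrank (Subspace.dual_finrank_eq).symm).1 hinj
  obtain ⟨y, hy⟩ := hsurj ((f x)⁻¹ • f)
  have h1 : ∀ z, polar Q y z = (f x)⁻¹ * f z := by
    intro z
    rw [← polarBilin_apply_apply, hy]
    rfl
  refine ⟨y, fun u hu => ?_, ?_⟩
  · have h2 : f u ∈ U.map f := ⟨u, hu, rfl⟩
    rw [hfU, Submodule.mem_bot] at h2
    rw [h1, h2, mul_zero]
  · rw [h1, inv_mul_cancel₀ hf]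

/-! ### the stabiliser of a vector -/

/-- the stabiliser of `v` in `O Q` -/
def St (Q : QuadraticForm F V) (v : V) : Subgroup (V ≃ₗ[F] V) where
  carrier := {g | g ∈ O Q ∧ g v = v}
  mul_mem' {g h} hg hh := ⟨(O Q).mul_mem hg.1 hh.1, by
    show g (h v) = v
    rw [hh.2, hg.2]⟩
  one_mem' := ⟨(O Q).one_mem, rfl⟩
  inv_mem' {g} hg := ⟨(O Q).inv_mem hg.1, by
    show g.symm v = v
    rw [LinearEquiv.symm_apply_eq, hg.2]⟩

theorem mem_St {v : V} {g : V ≃ₗ[F] V} : g ∈ St Q v ↔ g ∈ O Q ∧ g v = v := Iff.rfl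

theorem St_le_O (v : V) : St Q v ≤ O Q := fun _ hg => hg.1

theorem siegel_mem_St {v u w : V} (hu : Q u = 0) (hw : polar Q u w = 0) (huv : polar Q u v = 0) (hwv : polar Q w v = 0) :
    siegel Q u w hu hw ∈ St Q v := by
  refine ⟨siegel_mem_O hu hw, ?_⟩
  rw [siegel_apply, huv, hwv]
  simp

theorem refl_mem_St {v a : V} (ha : Q a ≠ 0) (hav : polar Q a v = 0) : refl Q a ha ∈ St Q v := by
  refine ⟨refl_mem_O ha, ?_⟩
  rw [refl_apply, hav, mul_zero, zero_smul, sub_zero]

/-- the vectors perpendicular to `v` -/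
def pv (Q : QuadraticForm F V) (v : V) : Submodule F V := LinearMap.ker (polarBilin Q v)

theorem mem_pv {v x : V} : x ∈ pv Q v ↔ polar Q x v = 0 := by
  rw [pv, LinearMap.mem_ker, polarBilin_apply_apply, polar_comm]

theorem mem_closure_of_St [FiniteDimensional F V] (hQ : Nondeg Q) {v : V} {g : V ≃ₗ[F] V} (hg : g ∈ St Q v) :
    g ∈ Subgroup.closure (genSet Q (pv Q v)) := by
  refine mem_closure_of_res hQ _ hg.1 fun w => mem_pv.2 ?_
  rw [polar_sub_left]
  nth_rewrite 1 [← hg.2]
  rw [polar_map hg.1, sub_self]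

/-! ### the group generated by the Siegel transformations of `v^⊥` -/

/-- the group generated by the Siegel transformations of `v^⊥` -/
def Sg (Q : QuadraticForm F V) (v : V) : Subgroup (V ≃ₗ[F] V) :=
  Subgroup.closure {g | ∃ (u w : V) (hu : Q u = 0) (hw : polar Q u w = 0), polar Q u v = 0 ∧ polar Q w v = 0 ∧
    g = siegel Q u w hu hw}

theorem siegel_mem_Sg {v u w : V} (hu : Q u = 0) (hw : polar Q u w = 0) (huv : polar Q u v = 0) (hwv : polar Q w v = 0) :
    siegel Q u w hu hw ∈ Sg Q v := Subgroup.subset_closure ⟨u, w, hu, hw, huv, hwv, rfl⟩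

theorem Sg_le {v : V} {H : Subgroup (V ≃ₗ[F] V)} (h : ∀ (u w : V) (hu : Q u = 0) (hw : polar Q u w = 0), polar Q u v = 0 →
    polar Q w v = 0 → siegel Q u w hu hw ∈ H) : Sg Q v ≤ H := by
  rw [Sg, Subgroup.closure_le]
  rintro _ ⟨u, w, hu, hw, huv, hwv, rfl⟩
  exact h u w hu hw huv hwv

theorem Sg_le_St (v : V) : Sg Q v ≤ St Q v := Sg_le fun _ _ hu hw huv hwv => siegel_mem_St hu hw huv hwv

theorem Sg_le_E (v : V) : Sg Q v ≤ E Q := Sg_le fun _ _ hu hw _ _ => siegel_mem_E hu hw

theorem conj_mem_Sg {v : V} {g h : V ≃ₗ[F] V} (hg : g ∈ St Q v) (hh : h ∈ Sg Q v) : g * h * g⁻¹ ∈ Sg Q v := by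
  induction hh using Subgroup.closure_induction with
  | mem x hx =>
    obtain ⟨u, w, hu, hw, huv, hwv, rfl⟩ := hx
    have hu' : Q (g u) = 0 := by rw [mem_O.1 hg.1]; exact hu
    have hw' : polar Q (g u) (g w) = 0 := by rw [polar_map hg.1]; exact hw
    rw [siegel_conj hg.1 hu hw hu' hw']
    refine siegel_mem_Sg hu' hw' ?_ ?_
    · nth_rewrite 1 [← hg.2]
      rw [polar_map hg.1, huv]
    · nth_rewrite 1 [← hg.2]
      rw [polar_map hg.1, hwv]
  | one => simp
  | mul x y _ _ hx hy =>
    have : g * (x * y) * g⁻¹ = (g * x * g⁻¹) * (g * y * g⁻¹) := by group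
    rw [this]
    exact (Sg Q v).mul_mem hx hy
  | inv x _ hx =>
    have : g * x⁻¹ * g⁻¹ = (g * x * g⁻¹)⁻¹ := by group
    rw [this]
    exact (Sg Q v).inv_mem hx

/-- `Sg` in the stabiliser -/
def SN (Q : QuadraticForm F V) (v : V) : Subgroup (St Q v) := (Sg Q v).subgroupOf (St Q v)

instance (v : V) : (SN Q v).Normal := ⟨fun n hn g => by
  rw [SN, Subgroup.mem_subgroupOf] at hn ⊢
  exact conj_mem_Sg g.2 hn⟩

/-- the class modulo `Sg` -/
def cls {v : V} : St Q v →* (St Q v) ⧸ (SN Q v) := QuotientGroup.mk' _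

theorem cls_eq_one {v : V} {g : St Q v} : cls g = 1 ↔ (g : V ≃ₗ[F] V) ∈ Sg Q v := by
  rw [cls, QuotientGroup.mk'_apply, QuotientGroup.eq_one_iff, SN, Subgroup.mem_subgroupOf]

section comm

set_option linter.unusedSectionVars false

variable [Finite F] [FiniteDimensional F V] (hQ : Nondeg Q) (hd : 7 ≤ finrank F V) {v : V} (hv : Q v ≠ 0)
include hQ hd hv

/-- two orthogonal hyperbolic pairs perpendicular to `v` -/
theorem exists_pairs {u : V} (hu : Q u = 0) (hu0 : u ≠ 0) (huv : polar Q u v = 0) :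
    ∃ u' x y, Hyp Q u u' ∧ polar Q u' v = 0 ∧ Hyp Q x y ∧ polar Q x v = 0 ∧ polar Q y v = 0 ∧
      polar Q x u = 0 ∧ polar Q y u = 0 ∧ polar Q x u' = 0 ∧ polar Q y u' = 0 := by
  have h1 : u ∉ F ∙ v := by
    intro h
    obtain ⟨c, rfl⟩ := Submodule.mem_span_singleton.1 h
    rw [QuadraticMap.map_smul, smul_eq_mul, mul_eq_zero, or_iff_left hv, mul_self_eq_zero] at hu
    exact hu0 (by rw [hu, zero_smul])
  obtain ⟨z, hz, hzu⟩ := exists_sep hQ h1
  have hzv : polar Q z v = 0 := hz v (Submodule.mem_span_singleton_self v)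
  have huu : polar Q u u = 0 := polar_self_of_sing hu
  have huz : polar Q u z = 1 := by rw [polar_comm]; exact hzu
  have hyp : Hyp Q u (z - Q z • u) := by
    refine ⟨hu, ?_, ?_⟩
    · rw [sub_eq_add_neg, ← neg_smul, Q_add, QuadraticMap.map_smul, hu, polar_smul_right, hzu]
      simp
    · rw [polar_sub_right, polar_smul_right, huz, huu, smul_zero, sub_zero]
  have huv' : polar Q (z - Q z • u) v = 0 := by
    rw [polar_sub_left, polar_smul_left, hzv, huv, smul_zero, sub_zero]
  set u' := z - Q z • u with hu'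
  obtain ⟨x, hx0, hx, hxx⟩ := exists_sing_perp (Q := Q) ![u, u', v] (by omega)
  have hux : polar Q u x = 0 := hxx 0
  have hu'x : polar Q u' x = 0 := hxx 1
  have hvx : polar Q v x = 0 := hxx 2
  have h2 : x ∉ Submodule.span F {u, u', v} := by
    intro h
    obtain ⟨a, b, c, rfl⟩ := Submodule.mem_span_triple.1 h
    have h3 : b = 0 := by
      have := hux
      rw [polar_add_right, polar_add_right, polar_smul_right, polar_smul_right, polar_smul_right, huu, hyp.pair, huv] at this
      simpa using this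
    have h4 : a = 0 := by
      have := hu'x
      rw [polar_add_right, polar_add_right, polar_smul_right, polar_smul_right, polar_smul_right, hyp.pair', huv', h3] at this
      simpa using this
    rw [h3, h4, zero_smul, zero_smul, zero_add, zero_add, QuadraticMap.map_smul, smul_eq_mul, mul_eq_zero,
      or_iff_left hv, mul_self_eq_zero] at hx
    apply hx0
    rw [h3, h4, hx]
    simp
  obtain ⟨y, hy, hyx⟩ := exists_sep hQ h2
  have hyu : polar Q y u = 0 := hy u (Submodule.subset_span (by simp))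
  have hyu' : polar Q y u' = 0 := hy u' (Submodule.subset_span (by simp))
  have hyv : polar Q y v = 0 := hy v (Submodule.subset_span (by simp))
  have hxx' : polar Q x x = 0 := polar_self_of_sing hx
  have hxu : polar Q x u = 0 := by rw [polar_comm]; exact hux
  have hxu' : polar Q x u' = 0 := by rw [polar_comm]; exact hu'x
  have hxv : polar Q x v = 0 := by rw [polar_comm]; exact hvx
  refine ⟨u', x, y - Q y • x, hyp, huv', ⟨hx, ?_, ?_⟩, hxv, ?_, hxu, ?_, hxu', ?_⟩
  · rw [sub_eq_add_neg, ← neg_smul, Q_add, QuadraticMap.map_smul, hx, polar_smul_right, hyx]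
    simp
  · rw [polar_sub_right, polar_smul_right, hxx', smul_zero, sub_zero, polar_comm]
    exact hyx
  · rw [polar_sub_left, polar_smul_left, hyv, hxv, smul_zero, sub_zero]
  · rw [polar_sub_left, polar_smul_left, hyu, hxu, smul_zero, sub_zero]
  · rw [polar_sub_left, polar_smul_left, hyu', hxu', smul_zero, sub_zero]

/-- Siegel transformations with two singular vectors of `v^⊥` are commutators in the stabiliser -/
theorem siegel_mem_comm_sing {u w : V} (hu : Q u = 0) (hw : Q w = 0) (huw : polar Q u w = 0) (huv : polar Q u v = 0)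
    (hwv : polar Q w v = 0) : siegel Q u w hu huw ∈ ⁅St Q v, St Q v⁆ := by
  -- `a`, `c` perpendicular to `u, w, v` with `b(a, c) = 1`
  obtain ⟨a, ha, hna⟩ : ∃ a, (polar Q u a = 0 ∧ polar Q w a = 0 ∧ polar Q v a = 0) ∧ a ∉ Submodule.span F {u, w, v} := by
    by_contra hcon
    push Not at hcon
    let f : V →ₗ[F] (Fin 3 → F) := LinearMap.pi ![polarBilin Q u, polarBilin Q w, polarBilin Q v]
    have h1 := LinearMap.finrank_range_add_finrank_ker f
    have h2 : Module.finrank F (LinearMap.range f) ≤ 3 := by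
      refine le_trans (Submodule.finrank_le _) ?_
      rw [Module.finrank_fin_fun]
    have h3 : LinearMap.ker f ≤ Submodule.span F {u, w, v} := by
      intro a ha
      refine hcon a ⟨?_, ?_, ?_⟩
      · have := congrFun (LinearMap.mem_ker.1 ha) 0
        simpa [f] using this
      · have := congrFun (LinearMap.mem_ker.1 ha) 1
        simpa [f] using this
      · have := congrFun (LinearMap.mem_ker.1 ha) 2
        simpa [f] using this
    have h4 := Submodule.finrank_mono h3
    have h5 : finrank F (Submodule.span F ({u, w, v} : Set V)) ≤ 3 := by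
      classical
      have := finrank_span_finset_le_card (R := F) ({u, w, v} : Finset V)
      have h6 : (({u, w, v} : Finset V) : Set V) = {u, w, v} := by simp
      rw [h6] at this
      exact this.trans Finset.card_le_three
    omega
  obtain ⟨ha1, ha2, ha3⟩ := ha
  obtain ⟨c, hc, hca⟩ := exists_sep hQ hna
  have hcu : polar Q c u = 0 := hc u (Submodule.subset_span (by simp))
  have hcw : polar Q c w = 0 := hc w (Submodule.subset_span (by simp))
  have hcv : polar Q c v = 0 := hc v (Submodule.subset_span (by simp))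
  have hc1 : polar Q u c = 0 := by rw [polar_comm]; exact hcu
  have hav : polar Q a v = 0 := by rw [polar_comm]; exact ha3
  have hac : polar Q a c = 1 := by rw [polar_comm]; exact hca
  have hwc : polar Q w c = 0 := by rw [polar_comm]; exact hcw
  have hgt : siegel Q w a hw ha2 u = u := by
    rw [siegel_apply, polar_comm Q w u, huw, polar_comm Q a u, ha1]
    simp
  have hgc : siegel Q w a hw ha2 c = c - w := by
    rw [siegel_apply, hwc, hac]
    simp
  have hg := siegel_mem_O hw ha2 (w := a)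
  have hcomm : siegel Q w a hw ha2 * siegel Q u c hu hc1 * (siegel Q w a hw ha2)⁻¹ *
      (siegel Q u c hu hc1)⁻¹ ∈ ⁅St Q v, St Q v⁆ := by
    rw [← commutatorElement_def]
    exact Subgroup.commutator_mem_commutator (siegel_mem_St _ _ hwv hav) (siegel_mem_St _ _ huv hcv)
  have h1 : Q (siegel Q w a hw ha2 u) = 0 := by rw [hgt]; exact hu
  have h2 : polar Q (siegel Q w a hw ha2 u) (siegel Q w a hw ha2 c) = 0 := by
    rw [hgt, hgc, polar_sub_right, hc1, huw, sub_zero]
  have h3 : polar Q u (c - w) = 0 := by rw [polar_sub_right, hc1, huw, sub_zero]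
  have h4 : polar Q u (-c) = 0 := by rw [polar_neg_right, hc1, neg_zero]
  have h5 : polar Q u (-w) = 0 := by rw [polar_neg_right, huw, neg_zero]
  have h6 : polar Q u (c - w + -c) = 0 := by rw [polar_add_right, h3, h4, add_zero]
  have e1 : siegel Q w a hw ha2 * siegel Q u c hu hc1 * (siegel Q w a hw ha2)⁻¹ = siegel Q u (c - w) hu h3 := by
    rw [siegel_conj hg hu hc1 h1 h2]
    congr 1
  rw [e1, siegel_inv hu hc1 h4, siegel_mul hu h3 h4 h6] at hcomm
  have e2 : siegel Q u (c - w + -c) hu h6 = (siegel Q u w hu huw)⁻¹ := by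
    rw [siegel_inv hu huw h5]
    congr 1
    abel
  rw [e2] at hcomm
  simpa using (Subgroup.inv_mem _ hcomm)

/-- Siegel transformations of `v^⊥` are in the commutator subgroup of the stabiliser -/
theorem siegel_mem_comm {u w : V} (hu : Q u = 0) (huw : polar Q u w = 0) (huv : polar Q u v = 0)
    (hwv : polar Q w v = 0) : siegel Q u w hu huw ∈ ⁅St Q v, St Q v⁆ := by
  by_cases hu0 : u = 0
  · have : siegel Q u w hu huw = 1 := by
      ext z
      rw [siegel_apply, hu0]
      simp
    rw [this]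
    exact Subgroup.one_mem _
  obtain ⟨u', x, y, h, hu'v, hxy, hxv, hyv, hxu, hyu, hxu', hyu'⟩ := exists_pairs hQ hd hv hu hu0 huv
  have huu : polar Q u u = 0 := polar_self_of_sing hu
  have hux : polar Q u x = 0 := by rw [polar_comm]; exact hxu
  have huy : polar Q u y = 0 := by rw [polar_comm]; exact hyu
  -- `w = w1 + α x + β y` with `w1 ⊥ x, y`
  set w1 := w - polar Q y w • x - polar Q x w • y with hw1
  have hx1 : polar Q x w1 = 0 := by
    rw [hw1, polar_sub_right, polar_sub_right, polar_smul_right, polar_smul_right, hxy.polar_left, hxy.pair]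
    simp
  have hy1 : polar Q y w1 = 0 := by
    rw [hw1, polar_sub_right, polar_sub_right, polar_smul_right, polar_smul_right, hxy.polar_right, hxy.pair']
    simp
  have hu1 : polar Q u w1 = 0 := by
    rw [hw1, polar_sub_right, polar_sub_right, polar_smul_right, polar_smul_right, hux, huy, huw]
    simp
  have hv1 : polar Q w1 v = 0 := by
    rw [hw1, polar_sub_left, polar_sub_left, polar_smul_left, polar_smul_left, hxv, hyv, hwv]
    simp
  -- three singular vectors
  set s1 := x + (w1 - Q w1 • y) with hs1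
  have hq1 : Q s1 = 0 := by
    rw [hs1, Q_add, hxy.left, sub_eq_add_neg, ← neg_smul, Q_add, QuadraticMap.map_smul, hxy.right, polar_smul_right,
      polar_comm Q w1 y, hy1, polar_add_right, hx1, polar_smul_right, hxy.pair]
    simp
  have hs1u : polar Q u s1 = 0 := by
    rw [hs1, polar_add_right, polar_sub_right, polar_smul_right, hux, hu1, huy]
    simp
  have hs1v : polar Q s1 v = 0 := by
    rw [hs1, polar_add_left, polar_sub_left, polar_smul_left, hxv, hv1, hyv]
    simp
  set s2 := (polar Q y w - 1) • x with hs2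
  set s3 := (polar Q x w + Q w1) • y with hs3
  have hws : w = s1 + (s2 + s3) := by
    rw [hs1, hs2, hs3, hw1]
    module
  have hq2 : Q s2 = 0 := by rw [hs2, QuadraticMap.map_smul, hxy.left, smul_zero]
  have hq3 : Q s3 = 0 := by rw [hs3, QuadraticMap.map_smul, hxy.right, smul_zero]
  have hs2u : polar Q u s2 = 0 := by rw [hs2, polar_smul_right, hux, smul_zero]
  have hs3u : polar Q u s3 = 0 := by rw [hs3, polar_smul_right, huy, smul_zero]
  have hs2v : polar Q s2 v = 0 := by rw [hs2, polar_smul_left, hxv, smul_zero]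
  have hs3v : polar Q s3 v = 0 := by rw [hs3, polar_smul_left, hyv, smul_zero]
  have hs23 : polar Q u (s2 + s3) = 0 := by rw [polar_add_right, hs2u, hs3u, add_zero]
  have hall : polar Q u (s1 + (s2 + s3)) = 0 := by rw [polar_add_right, hs1u, hs23, add_zero]
  have hm := siegel_add_mem hu hs1u hs23 hall (siegel_mem_comm_sing hQ hd hv hu hq1 hs1u huv hs1v)
    (siegel_add_mem hu hs2u hs3u hs23 (siegel_mem_comm_sing hQ hd hv hu hq2 hs2u huv hs2v)
      (siegel_mem_comm_sing hQ hd hv hu hq3 hs3u huv hs3v))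
  have e4 : siegel Q u w hu huw = siegel Q u (s1 + (s2 + s3)) hu hall := by
    congr 1
  rw [e4]
  exact hm

omit [Finite F] [FiniteDimensional F V] hQ hd hv in
/-- conjugate reflections have the same class -/
theorem cls_refl_eq {v a b : V} (ha : Q a ≠ 0) (hb : Q b ≠ 0) (hav : polar Q a v = 0) (hbv : polar Q b v = 0)
    {s : V ≃ₗ[F] V} (hs : s ∈ Sg Q v) (hsb : s b = a) :
    cls (⟨refl Q a ha, refl_mem_St ha hav⟩ : St Q v) = cls (⟨refl Q b hb, refl_mem_St hb hbv⟩ : St Q v) := by
  subst hsb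
  have hs' := Sg_le_St v hs
  have h1 : (⟨refl Q (s b) ha, refl_mem_St ha hav⟩ : St Q v) =
      ⟨s, hs'⟩ * ⟨refl Q b hb, refl_mem_St hb hbv⟩ * ⟨s, hs'⟩⁻¹ := by
    apply Subtype.ext
    show refl Q (s b) ha = s * refl Q b hb * s⁻¹
    rw [refl_conj hs'.1 hb ha]
  have h2 : cls (⟨s, hs'⟩ : St Q v) = 1 := cls_eq_one.2 hs
  rw [h1, map_mul, map_mul, map_inv, h2, one_mul, inv_one, mul_one]

omit [Finite F] [FiniteDimensional F V] hQ hd hv in
theorem cls_refl_sq {v a : V} (ha : Q a ≠ 0) (hav : polar Q a v = 0) :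
    cls (⟨refl Q a ha, refl_mem_St ha hav⟩ : St Q v) * cls (⟨refl Q a ha, refl_mem_St ha hav⟩ : St Q v) = 1 := by
  rw [← map_mul]
  have h1 : (⟨refl Q a ha, refl_mem_St ha hav⟩ * ⟨refl Q a ha, refl_mem_St ha hav⟩ : St Q v) = 1 :=
    Subtype.ext (refl_mul_self ha)
  rw [h1, map_one]

omit [Finite F] [FiniteDimensional F V] hQ hd hv in
theorem refl_congr {a b : V} (h : a = b) (ha : Q a ≠ 0) (hb : Q b ≠ 0) : refl Q a ha = refl Q b hb := by
  subst h; rfl

/-- the classes of the elements of the stabiliser, if the classes of the reflections are `α` and `β` -/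
theorem class_cases {α β : (St Q v) ⧸ (SN Q v)} (hα : α * α = 1) (hβ : β * β = 1) (hαβ : Commute α β)
    (hr : ∀ (a : V) (ha : Q a ≠ 0) (hav : polar Q a v = 0),
      cls (⟨refl Q a ha, refl_mem_St ha hav⟩ : St Q v) = α ∨ cls (⟨refl Q a ha, refl_mem_St ha hav⟩ : St Q v) = β)
    (g : St Q v) : ∃ i j : ℕ, cls g = α ^ i * β ^ j := by
  have key : ∀ g ∈ Subgroup.closure (genSet Q (pv Q v)), ∀ hg : g ∈ St Q v,
      ∃ i j : ℕ, cls (⟨g, hg⟩ : St Q v) = α ^ i * β ^ j := by
    have hle : Subgroup.closure (genSet Q (pv Q v)) ≤ St Q v := by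
      rw [Subgroup.closure_le]
      rintro _ (⟨a, ha, haU, rfl⟩ | ⟨u, w, hu, hw, huU, hwU, rfl⟩)
      · exact refl_mem_St ha (mem_pv.1 haU)
      · exact siegel_mem_St hu hw (mem_pv.1 huU) (mem_pv.1 hwU)
    intro g hgc
    induction hgc using Subgroup.closure_induction with
    | mem x hx =>
      intro hx'
      rcases hx with ⟨a, ha, haU, rfl⟩ | ⟨u, w, hu, hw, huU, hwU, rfl⟩
      · rcases hr a ha (mem_pv.1 haU) with h | h
        · exact ⟨1, 0, by rw [pow_one, pow_zero, mul_one]; exact h⟩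
        · exact ⟨0, 1, by rw [pow_one, pow_zero, one_mul]; exact h⟩
      · refine ⟨0, 0, ?_⟩
        rw [pow_zero, pow_zero, mul_one, cls_eq_one]
        exact siegel_mem_Sg hu hw (mem_pv.1 huU) (mem_pv.1 hwU)
    | one =>
      intro h1
      exact ⟨0, 0, by rw [pow_zero, pow_zero, mul_one]; exact map_one _⟩
    | mul x y hx hy ihx ihy =>
      intro hxy
      obtain ⟨i, j, h1⟩ := ihx (hle hx)
      obtain ⟨i', j', h3⟩ := ihy (hle hy)
      refine ⟨i + i', j + j', ?_⟩
      have : (⟨x * y, hxy⟩ : St Q v) = ⟨x, hle hx⟩ * ⟨y, hle hy⟩ := rfl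
      have h5 : β ^ j * α ^ i' = α ^ i' * β ^ j := (hαβ.pow_pow i' j).eq.symm
      rw [this, map_mul, h1, h3, pow_add, pow_add, mul_assoc, ← mul_assoc (β ^ j), h5]
      group
    | inv x hx ihx =>
      intro hxi
      obtain ⟨i, j, h1⟩ := ihx (hle hx)
      refine ⟨i, j, ?_⟩
      have : (⟨x⁻¹, hxi⟩ : St Q v) = ⟨x, hle hx⟩⁻¹ := rfl
      rw [this, map_inv, h1, mul_inv_rev, ← inv_pow, ← inv_pow, inv_eq_of_mul_eq_one_left hα, inv_eq_of_mul_eq_one_left hβ]
      exact (hαβ.pow_pow i j).eq.symm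
  exact key g (mem_closure_of_St hQ g.2) g.2

/-! #### odd characteristic -/

/-- `Sg` is transitive on the vectors of given norm of `v^⊥` -/
theorem trans_pv (h2 : (2 : F) ≠ 0) {a b : V} (ha : a ≠ 0) (hb : b ≠ 0) (hav : polar Q a v = 0) (hbv : polar Q b v = 0)
    (h : Q a = Q b) : ∃ s ∈ Sg Q v, s b = a := by
  set U := pv Q v with hU
  let QU : QuadraticForm F U := Q.comp U.subtype
  have hQU : ∀ x : U, QU x = Q (x : V) := fun x => rfl
  have hpU : ∀ x y : U, polar QU x y = polar Q (x : V) (y : V) := fun x y => rfl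
  have hvv : polar Q v v ≠ 0 := by
    rw [polar_self']
    exact mul_ne_zero h2 hv
  have hnd : Nondeg QU := by
    intro x hx
    apply Subtype.ext
    apply hQ
    intro z
    have hz : z - (polar Q z v * (polar Q v v)⁻¹) • v ∈ U := by
      rw [hU, mem_pv, polar_sub_left, polar_smul_left, smul_eq_mul, mul_assoc, inv_mul_cancel₀ hvv, mul_one, sub_self]
    have h1 := hx ⟨_, hz⟩
    rw [hpU] at h1
    have hxv : polar Q (x : V) v = 0 := mem_pv.1 x.2
    rw [polar_sub_right, polar_smul_right, hxv, smul_zero, sub_zero] at h1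
    exact h1
  have hfr : 5 ≤ finrank F U := by
    have h1 := LinearMap.finrank_range_add_finrank_ker (polarBilin Q v)
    have h3 : finrank F (LinearMap.range (polarBilin Q v)) ≤ 1 := by
      refine le_trans (Submodule.finrank_le _) ?_
      rw [Module.finrank_self]
    have h4 : finrank F U = finrank F (LinearMap.ker (polarBilin Q v)) := rfl
    omega
  have hG := good_of_finite hnd hfr
  have hext : ∀ e ∈ E QU, ∃ s ∈ Sg Q v, ∀ x : U, s x = e x := by
    intro e he
    induction he using Subgroup.closure_induction with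
    | mem x hx =>
      obtain ⟨u, w, hu, hw, rfl⟩ := hx
      have hu' : Q (u : V) = 0 := hu
      have hw' : polar Q (u : V) (w : V) = 0 := hw
      refine ⟨siegel Q (u : V) (w : V) hu' hw', siegel_mem_Sg _ _ (mem_pv.1 u.2) (mem_pv.1 w.2), fun x => ?_⟩
      rw [siegel_apply, siegel_apply]
      rfl
    | one => exact ⟨1, (Sg Q v).one_mem, fun x => rfl⟩
    | mul x y _ _ hx hy =>
      obtain ⟨s, hs, hs'⟩ := hx
      obtain ⟨t, ht, ht'⟩ := hy
      refine ⟨s * t, (Sg Q v).mul_mem hs ht, fun z => ?_⟩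
      show s (t z) = x (y z)
      rw [ht', hs']
    | inv x _ hx =>
      obtain ⟨s, hs, hs'⟩ := hx
      refine ⟨s⁻¹, (Sg Q v).inv_mem hs, fun z => ?_⟩
      show s.symm z = x.symm z
      rw [LinearEquiv.symm_apply_eq, hs', LinearEquiv.apply_symm_apply]
  obtain ⟨e, he, hea⟩ := hG.trans_norm (v := (⟨b, mem_pv.2 hbv⟩ : U)) (v' := (⟨a, mem_pv.2 hav⟩ : U))
    (fun h0 => hb (congrArg Subtype.val h0)) (fun h0 => ha (congrArg Subtype.val h0)) h.symm
  obtain ⟨s, hs, hs'⟩ := hext e he
  exact ⟨s, hs, by rw [hs' ⟨b, mem_pv.2 hbv⟩, hea]⟩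

/-- reflections of vectors of the same norm -/
theorem cls_refl_norm (h2 : (2 : F) ≠ 0) {a b : V} (ha : Q a ≠ 0) (hb : Q b ≠ 0) (hav : polar Q a v = 0)
    (hbv : polar Q b v = 0) (h : Q a = Q b) :
    cls (⟨refl Q a ha, refl_mem_St ha hav⟩ : St Q v) = cls (⟨refl Q b hb, refl_mem_St hb hbv⟩ : St Q v) := by
  obtain ⟨s, hs, hsb⟩ := trans_pv hQ hd hv h2 (fun h0 => ha (by rw [h0, QuadraticMap.map_zero]))
    (fun h0 => hb (by rw [h0, QuadraticMap.map_zero])) hav hbv h
  exact cls_refl_eq ha hb hav hbv hs hsb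

theorem cls_refl_class (h2 : (2 : F) ≠ 0) {a b : V} (ha : Q a ≠ 0) (hb : Q b ≠ 0) (hav : polar Q a v = 0)
    (hbv : polar Q b v = 0) (h : IsSquare (Q a * (Q b)⁻¹)) :
    cls (⟨refl Q a ha, refl_mem_St ha hav⟩ : St Q v) = cls (⟨refl Q b hb, refl_mem_St hb hbv⟩ : St Q v) := by
  obtain ⟨c, hc⟩ := h
  have hc0 : c ≠ 0 := by
    rintro rfl
    rw [mul_zero, mul_eq_zero, inv_eq_zero] at hc
    rcases hc with h | h
    · exact ha h
    · exact hb h
  have h3 : Q (c • b) = Q a := by
    rw [QuadraticMap.map_smul, smul_eq_mul, ← hc, mul_assoc, inv_mul_cancel₀ hb, mul_one]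
  have h4 : Q (c • b) ≠ 0 := by rw [h3]; exact ha
  have h5 : polar Q (c • b) v = 0 := by rw [polar_smul_left, hbv, smul_zero]
  rw [cls_refl_norm hQ hd hv h2 ha h4 hav h5 h3.symm]
  congr 1
  apply Subtype.ext
  exact refl_smul hb hc0 h4

omit [Finite F] [FiniteDimensional F V] hQ hd hv in
/-- homomorphisms of `O Q` to commutative groups are trivial on the commutator subgroup -/
theorem hom_comm {A : Type*} [CommGroup A] (φ : O Q →* A) {g : V ≃ₗ[F] V} (hg : g ∈ ⁅O Q, O Q⁆) (hg' : g ∈ O Q) :
    φ ⟨g, hg'⟩ = 1 := by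
  have h1 : ⁅O Q, O Q⁆ = (commutator ↥(O Q)).map (O Q).subtype := by
    rw [commutator_def, Subgroup.map_commutator, ← MonoidHom.range_eq_map, Subgroup.range_subtype]
  rw [h1] at hg
  obtain ⟨k, hk, hkg⟩ := hg
  have h2 : k = ⟨g, hg'⟩ := Subtype.ext hkg
  rw [← h2]
  have := Abelianization.commutator_subset_ker φ hk
  rwa [MonoidHom.mem_ker] at this

/-- odd characteristic -/
theorem mem_Sg_odd (h2 : (2 : F) ≠ 0) {g : V ≃ₗ[F] V} (hg : g ∈ E Q) (hgv : g v = v) : g ∈ Sg Q v := by
  classical
  have hfV : Finite V := Module.finite_of_finite F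
  -- a hyperbolic pair in `v^⊥`
  obtain ⟨u, hu0, hu, huv⟩ := exists_sing_perp (Q := Q) ![v] (by omega)
  have huv' : polar Q u v = 0 := by rw [polar_comm]; exact huv 0
  obtain ⟨u', x, y, hyp, hu'v, hxy, hxv, hyv, hxu, hyu, hxu', hyu'⟩ := exists_pairs hQ hd hv hu hu0 huv'
  have hchar : ringChar F ≠ 2 := by
    intro h
    apply h2
    have := ringChar.Nat.cast_ringChar (R := F)
    rw [h] at this
    exact_mod_cast this
  obtain ⟨ν, hν⟩ := FiniteField.exists_nonsquare (F := F) hchar
  have hν0 : ν ≠ 0 := by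
    rintro rfl
    exact hν ⟨0, by rw [mul_zero]⟩
  have hna : Q (u + u') = 1 := by
    rw [Q_add, hyp.left, hyp.right, hyp.pair]
    simp
  have hnb : Q (x + ν • y) = ν := by
    rw [Q_add, QuadraticMap.map_smul, hxy.left, hxy.right, polar_smul_right, hxy.pair]
    simp
  have hpa : polar Q (u + u') v = 0 := by rw [polar_add_left, huv', hu'v, add_zero]
  have hpb : polar Q (x + ν • y) v = 0 := by
    rw [polar_add_left, polar_smul_left, hxv, hyv]
    simp
  have ha : Q (u + u') ≠ 0 := by rw [hna]; exact one_ne_zero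
  have hb : Q (x + ν • y) ≠ 0 := by rw [hnb]; exact hν0
  have hab : polar Q (u + u') (x + ν • y) = 0 := by
    rw [polar_comm, polar_add_left, polar_smul_left, polar_add_right, polar_add_right, hxu, hxu', hyu, hyu']
    simp
  set α := cls (⟨refl Q _ ha, refl_mem_St ha hpa⟩ : St Q v) with hα
  set β := cls (⟨refl Q _ hb, refl_mem_St hb hpb⟩ : St Q v) with hβ
  have hαβ : Commute α β := by
    show α * β = β * α
    rw [hα, hβ, ← map_mul, ← map_mul]
    congr 1
    exact Subtype.ext (refl_comm ha hb hab)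
  have hgS : g ∈ St Q v := ⟨E_le_O hg, hgv⟩
  obtain ⟨i, j, hij⟩ := class_cases hQ hd hv (α := α) (β := β) (cls_refl_sq ha hpa) (cls_refl_sq hb hpb) hαβ (by
    intro c hc hcv
    by_cases hsq : IsSquare (Q c)
    · left
      refine cls_refl_class hQ hd hv h2 hc ha hcv hpa ?_
      rw [hna, inv_one, mul_one]
      exact hsq
    · right
      refine cls_refl_class hQ hd hv h2 hc hb hcv hpb ?_
      rw [hnb]
      exact Cfsg.Agent.ClassicalGeometry.Universal.isSquare_mul_of_not h2 hsq (by rwa [isSquare_inv])) ⟨g, hgS⟩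
  -- the product of reflections lies in `E Q`
  set ra : V ≃ₗ[F] V := refl Q _ ha with hra
  set rb : V ≃ₗ[F] V := refl Q _ hb with hrb
  have hG : Good Q := good_of_finite hQ (by omega)
  have hE : ra ^ i * rb ^ j ∈ ⁅O Q, O Q⁆ := by
    have h3 : cls ((⟨refl Q _ ha, refl_mem_St ha hpa⟩ : St Q v) ^ i *
        (⟨refl Q _ hb, refl_mem_St hb hpb⟩ : St Q v) ^ j * (⟨g, hgS⟩ : St Q v)⁻¹) = 1 := by
      rw [map_mul, map_mul, map_pow, map_pow, map_inv, hij, ← hα, ← hβ, mul_inv_cancel]
    rw [cls_eq_one] at h3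
    have h4 : ra ^ i * rb ^ j * g⁻¹ ∈ ⁅O Q, O Q⁆ := by
      rw [hG.commutator_eq_E]
      exact Sg_le_E v h3
    have h5 : ra ^ i * rb ^ j = (ra ^ i * rb ^ j * g⁻¹) * g := by group
    rw [h5]
    refine Subgroup.mul_mem _ h4 ?_
    rw [hG.commutator_eq_E]; exact hg
  have hraO : ra ∈ O Q := refl_mem_O ha
  have hrbO : rb ∈ O Q := refl_mem_O hb
  have hO : ra ^ i * rb ^ j ∈ O Q := (O Q).mul_mem ((O Q).pow_mem hraO i) ((O Q).pow_mem hrbO j)
  have e1 : (⟨ra ^ i * rb ^ j, hO⟩ : O Q) = (⟨ra, hraO⟩ : O Q) ^ i * (⟨rb, hrbO⟩ : O Q) ^ j := rfl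
  have hi : (-1 : ℤˣ) ^ i = 1 := by
    have h3 := hom_comm (spin Q) hE hO
    rw [e1, map_mul, map_pow, map_pow, spin_refl h2 ha, spin_refl h2 hb, hna, hnb, if_pos ⟨1, by rw [mul_one]⟩, if_neg hν,
      one_pow, mul_one] at h3
    exact h3
  have hj : (-1 : Fˣ) ^ (i + j) = 1 := by
    have h3 := hom_comm ((LinearEquiv.det (R := F) (M := V)).comp (O Q).subtype) hE hO
    rw [e1, map_mul, map_pow, map_pow, MonoidHom.comp_apply, MonoidHom.comp_apply] at h3
    have h4 : LinearEquiv.det ra = -1 := det_refl ha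
    have h5 : LinearEquiv.det rb = -1 := det_refl hb
    change LinearEquiv.det ra ^ i * LinearEquiv.det rb ^ j = 1 at h3
    rw [h4, h5, ← pow_add] at h3
    exact h3
  have hie : Even i := by
    rcases Nat.even_or_odd i with h | h
    · exact h
    · rw [h.neg_one_pow] at hi
      exact absurd hi (by decide)
  have hije : Even (i + j) := by
    rcases Nat.even_or_odd (i + j) with h | h
    · exact h
    · rw [h.neg_one_pow] at hj
      exact absurd hj (Cfsg.Agent.ClassicalGeometry.OmegaIndex.neg_one_ne_one_units h2)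
  have hje : Even j := (Nat.even_add.1 hije).1 hie
  have hg1 : cls (⟨g, hgS⟩ : St Q v) = 1 := by
    rw [hij]
    obtain ⟨i', rfl⟩ := hie
    obtain ⟨j', rfl⟩ := hje
    have hα2 : α * α = 1 := cls_refl_sq ha hpa
    have hβ2 : β * β = 1 := cls_refl_sq hb hpb
    rw [← two_mul, ← two_mul, pow_mul, pow_mul, pow_two, pow_two, hα2, hβ2, one_pow, one_pow, mul_one]
  exact cls_eq_one.1 hg1

/-! #### characteristic two -/

omit [Finite F] [FiniteDimensional F V] hQ hd hv in
theorem cj_mem_comm {W : Type*} [AddCommGroup W] [Module F W] {Q' : QuadraticForm F W} {e : V ≃ₗ[F] W} (he : IsIso Q Q' e)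
    {g : V ≃ₗ[F] V} (hg : g ∈ ⁅O Q, O Q⁆) : cj e g ∈ ⁅O Q', O Q'⁆ := by
  have h1 : (O Q).map (cjEquiv e).toMonoidHom ≤ O Q' := by
    rintro _ ⟨x, hx, rfl⟩
    exact cj_mem_O he hx
  have h3 : cj e g ∈ (⁅O Q, O Q⁆).map (cjEquiv e).toMonoidHom := ⟨g, hg, rfl⟩
  rw [Subgroup.map_commutator] at h3
  exact Subgroup.commutator_mono h1 h1 h3

omit [Finite F] hd in
/-- a reflection is not in the commutator subgroup -/
theorem refl_notMem (h4 : finrank F V ≠ 4) : refl Q v hv ∉ ⁅O Q, O Q⁆ := by
  intro h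
  obtain ⟨Q', e, he⟩ := exists_iso_fin Q
  have h1 := cj_mem_comm he h
  have hv' : Q' (e v) ≠ 0 := by rw [he]; exact hv
  rw [cj_refl he hv hv'] at h1
  have h3 : ⁅O Q', O Q'⁆ = (commutator ↥(O Q')).map (O Q').subtype := by
    rw [commutator_def, Subgroup.map_commutator, ← MonoidHom.range_eq_map, Subgroup.range_subtype]
  rw [h3] at h1
  obtain ⟨k, hk, hke⟩ := h1
  have hQ' : Nondeg Q' := he.nondeg hQ
  have h5 := Cfsg.Agent.ClassicalGeometry.OrthDickson.refl_notMem_commutator Q'
    ⟨fun x hx => hQ' x hx, fun x hx => hQ' x fun y => by rw [polar_comm]; exact hx y⟩ (Or.inr (by rw [Fintype.card_fin]; exact h4)) (e v) hv'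
  apply h5
  have h6 : (isometryEquiv Q').symm k ∈ commutator ↥(Cfsg.isometryGroup F (⇑Q')) := by
    have h7 : (isometryEquiv Q').symm k ∈ (commutator ↥(O Q')).map (isometryEquiv Q').symm.toMonoidHom := ⟨k, hk, rfl⟩
    rw [commutator_def, Subgroup.map_commutator] at h7
    exact Subgroup.commutator_mono le_top le_top h7
  have h8 : (isometryEquiv Q').symm k = Cfsg.Agent.ClassicalGeometry.Reflection.reflIso Q' (e v) hv' := by
    rw [MulEquiv.symm_apply_eq]
    apply Subtype.ext
    ext1 x
    rw [isometryEquiv_apply, Cfsg.Agent.ClassicalGeometry.Reflection.coe_reflIso,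
      Cfsg.Agent.ClassicalGeometry.Reflection.reflectionMatrix_mulVec]
    have h9 : (k : _ ≃ₗ[F] _) x = refl Q' (e v) hv' x := by
      have := congrArg (fun z : _ ≃ₗ[F] _ => z x) hke
      exact this
    rw [h9, refl_apply]
  rw [← h8]
  exact h6

/-- characteristic two -/
theorem mem_Sg_even (h2 : (2 : F) = 0) {g : V ≃ₗ[F] V} (hg : g ∈ E Q) (hgv : g v = v) : g ∈ Sg Q v := by
  have hvv : polar Q v v = 0 := by rw [polar_self', h2, zero_mul]
  have vneg : ∀ z : V, -z = z := by
    intro z
    rw [neg_eq_iff_add_eq_zero, ← two_smul F z, h2, zero_smul]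
  set ρ := cls (⟨refl Q v hv, refl_mem_St hv hvv⟩ : St Q v) with hρ
  have hρ2 : ρ * ρ = 1 := cls_refl_sq hv hvv
  have hr : ∀ (a : V) (ha : Q a ≠ 0) (hav : polar Q a v = 0),
      cls (⟨refl Q a ha, refl_mem_St ha hav⟩ : St Q v) = ρ := by
    intro a ha hav
    obtain ⟨c, hc⟩ := Cfsg.Agent.ClassicalGeometry.OrthDickson.exists_sq_of_two h2 (Q v * (Q a)⁻¹)
    have hc0 : c ≠ 0 := by
      rintro rfl
      rw [mul_zero] at hc
      exact mul_ne_zero hv (inv_ne_zero ha) hc.symm
    have h3 : Q (c • a) = Q v := by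
      rw [QuadraticMap.map_smul, smul_eq_mul, hc, mul_assoc, inv_mul_cancel₀ ha, mul_one]
    have h4 : Q (c • a) ≠ 0 := by rw [h3]; exact hv
    have h5 : polar Q (c • a) v = 0 := by rw [polar_smul_left, hav, smul_zero]
    have h6 : (⟨refl Q a ha, refl_mem_St ha hav⟩ : St Q v) = ⟨refl Q (c • a) h4, refl_mem_St h4 h5⟩ :=
      Subtype.ext (refl_smul ha hc0 h4).symm
    rw [h6]
    by_cases hs0 : c • a + v = 0
    · have h7 : c • a = v := by rw [add_eq_zero_iff_eq_neg.1 hs0, vneg]
      congr 1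
      apply Subtype.ext
      exact refl_congr h7 h4 hv
    obtain ⟨s, hs⟩ : ∃ s, s = c • a + v := ⟨_, rfl⟩
    rw [← hs] at hs0
    have hQs : Q s = 0 := by
      rw [hs, Q_add, h3, h5, add_zero, ← two_mul, h2, zero_mul]
    have hsv : polar Q s v = 0 := by rw [hs, polar_add_left, h5, hvv, add_zero]
    obtain ⟨s', x, y, hss, hs'v, hxy, hxv, hyv, hxs, hys, hxs', hys'⟩ := exists_pairs hQ hd hv hQs hs0 hsv
    have hvs : polar Q v s = 0 := by rw [polar_comm]; exact hsv
    have hvx : polar Q v x = 0 := by rw [polar_comm]; exact hxv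
    have hsx : polar Q s x = 0 := by rw [polar_comm]; exact hxs
    have hxx : polar Q x x = 0 := hxy.polar_left
    have hss0 : polar Q s s = 0 := hss.polar_left
    -- norms
    have hn1 : Q (v + s) = Q v := by rw [Q_add, hQs, hvs, add_zero, add_zero]
    have hn2 : Q (v + x) = Q v := by rw [Q_add, hxy.left, hvx, add_zero, add_zero]
    have hn3 : Q (v + s + x) = Q v := by rw [Q_add, hn1, hxy.left, polar_add_left, hvx, hsx, add_zero, add_zero, add_zero]
    have hq1 : Q (v + s) ≠ 0 := by rw [hn1]; exact hv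
    have hq2 : Q (v + x) ≠ 0 := by rw [hn2]; exact hv
    have hq3 : Q (v + s + x) ≠ 0 := by rw [hn3]; exact hv
    have hp1 : polar Q (v + s) v = 0 := by rw [polar_add_left, hvv, hsv, add_zero]
    have hp2 : polar Q (v + x) v = 0 := by rw [polar_add_left, hvv, hxv, add_zero]
    have hp3 : polar Q (v + s + x) v = 0 := by rw [polar_add_left, hp1, hxv, add_zero]
    have c13 : cls (⟨refl Q _ hq3, refl_mem_St hq3 hp3⟩ : St Q v) =
        cls (⟨refl Q _ hq1, refl_mem_St hq1 hp1⟩ : St Q v) := by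
      refine cls_refl_eq hq3 hq1 hp3 hp1 (s := siegel Q x s' hxy.left hxs') (siegel_mem_Sg _ _ hxv hs'v) ?_
      rw [siegel_apply, polar_add_right, polar_add_right, hxv, hxs, hs'v, hss.pair', zero_add, zero_add, zero_smul, one_smul,
        mul_zero, zero_smul, sub_zero, add_zero, sub_eq_add_neg, vneg]
    have c23 : cls (⟨refl Q _ hq3, refl_mem_St hq3 hp3⟩ : St Q v) =
        cls (⟨refl Q _ hq2, refl_mem_St hq2 hp2⟩ : St Q v) := by
      refine cls_refl_eq hq3 hq2 hp3 hp2 (s := siegel Q s y hQs (by rw [polar_comm]; exact hys)) (siegel_mem_Sg _ _ hsv hyv) ?_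
      rw [siegel_apply, polar_add_right, polar_add_right, hsv, hsx, hyv, hxy.pair', zero_add, zero_add, zero_smul, one_smul,
        mul_zero, zero_smul, sub_zero, add_zero, sub_eq_add_neg, vneg]
      abel
    have hsk : polar Q s ((Q v)⁻¹ • x) = 0 := by rw [polar_smul_right, hsx, smul_zero]
    have hprod : refl Q v hv * refl Q _ hq1 * refl Q _ hq2 * refl Q _ hq3 = siegel Q s ((Q v)⁻¹ • x) hQs hsk := by
      ext z
      show refl Q v hv (refl Q _ hq1 (refl Q _ hq2 (refl Q _ hq3 z))) = _
      rw [siegel_apply]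
      simp only [refl_apply, hn1, hn2, hn3, polar_add_left, polar_add_right, polar_sub_right, polar_smul_right,
        polar_smul_left, QuadraticMap.map_smul, hxy.left, hvv, hsv, hxv, hvs, hvx, hsx, hxs, hxx, hss0, mul_zero,
        add_zero, sub_zero, smul_eq_mul]
      linear_combination (norm := module) h2 • (-(Q v)⁻¹ • ((2 * polar Q v z + polar Q s z + polar Q x z) • v +
        (polar Q v z + polar Q s z) • s + (polar Q v z + polar Q s z + polar Q x z) • x))
    have hcl : ρ * cls (⟨refl Q _ hq1, refl_mem_St hq1 hp1⟩ : St Q v) *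
        cls (⟨refl Q _ hq2, refl_mem_St hq2 hp2⟩ : St Q v) *
        cls (⟨refl Q _ hq3, refl_mem_St hq3 hp3⟩ : St Q v) = 1 := by
      rw [hρ, ← map_mul, ← map_mul, ← map_mul, cls_eq_one]
      show refl Q v hv * refl Q _ hq1 * refl Q _ hq2 * refl Q _ hq3 ∈ _
      rw [hprod]
      exact siegel_mem_Sg hQs hsk hsv (by rw [polar_smul_left, hxv, smul_zero])
    have hsq3 := cls_refl_sq (Q := Q) (v := v) hq3 hp3
    rw [← c13, ← c23, mul_assoc, mul_assoc, hsq3, mul_one] at hcl
    have h7 : cls (⟨refl Q _ hq3, refl_mem_St hq3 hp3⟩ : St Q v) = ρ :=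
      (eq_inv_of_mul_eq_one_right hcl).trans (inv_eq_of_mul_eq_one_left hρ2)
    rw [← h7, c13]
    congr 1
    apply Subtype.ext
    refine refl_congr ?_ h4 hq1
    rw [hs, add_comm v, add_assoc, ← two_smul F v, h2, zero_smul, add_zero]
  have hgS : g ∈ St Q v := ⟨E_le_O hg, hgv⟩
  obtain ⟨i, j, hij⟩ := class_cases hQ hd hv hρ2 hρ2 (Commute.refl ρ) (fun a ha hav => Or.inl (hr a ha hav)) ⟨g, hgS⟩
  rw [← pow_add] at hij
  have hG : Good Q := good_of_finite hQ (by omega)
  rcases Nat.even_or_odd (i + j) with he | ho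
  · obtain ⟨k, hk⟩ := he
    rw [hk, ← two_mul, pow_mul, pow_two, hρ2, one_pow] at hij
    exact cls_eq_one.1 hij
  · exfalso
    obtain ⟨k, hk⟩ := ho
    rw [hk, pow_succ, pow_mul, pow_two, hρ2, one_pow, one_mul] at hij
    have h3 : cls ((⟨refl Q v hv, refl_mem_St hv hvv⟩ : St Q v) * (⟨g, hgS⟩ : St Q v)⁻¹) = 1 := by
      rw [map_mul, map_inv, hij, ← hρ, mul_inv_cancel]
    rw [cls_eq_one] at h3
    have h4 : refl Q v hv * g⁻¹ ∈ ⁅O Q, O Q⁆ := by
      rw [hG.commutator_eq_E]
      exact Sg_le_E v h3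
    apply refl_notMem hQ hv (by omega : finrank F V ≠ 4)
    have h5 : refl Q v hv = (refl Q v hv * g⁻¹) * g := by group
    rw [h5]
    refine Subgroup.mul_mem _ h4 ?_
    rw [hG.commutator_eq_E]; exact hg

/-- **the stabiliser of `v` in `Ω(Q)` is generated by the Siegel transformations of `v^⊥`** -/
theorem mem_Sg_of_fix {g : V ≃ₗ[F] V} (hg : g ∈ E Q) (hgv : g v = v) : g ∈ Sg Q v := by
  by_cases h2 : (2 : F) = 0
  · exact mem_Sg_even hQ hd hv h2 hg hgv
  · exact mem_Sg_odd hQ hd hv h2 hg hgv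

theorem Sg_le_comm : Sg Q v ≤ ⁅St Q v, St Q v⁆ :=
  Sg_le fun _ _ hu hw huv hwv => siegel_mem_comm hQ hd hv hu hw huv hwv

end comm

end gen

end Cfsg.Agent.H826.Rg
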