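import Cfsg.Agent.H826.Rg.Gen

/-!
# S3691, residual case D+1 (alpha): linear algebra (helper826)

`V` a quadratic space of dimension `2 m` over a field with `q = p ^ f` elements, `D` a group of isometries which acts
semiregularly on the vectors of norm `c ≠ 0`, `r` a prime divisor of `|D|` with `ord_r(p) = f m`, `N ≠ 1` a normal
`p`-subgroup of `D`: then `W = C_V(N)` is totally singular of dimension `m`, `D` induces a `p`-group `A` on the vectors with
trivial action on `V / W`, `C_V(a) = W` for `1 ≠ a ∈ A`, `|D|` divides `q ^ (m - 1) (q ^ m - 1)`.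
-/

set_option autoImplicit false
set_option linter.unusedSectionVars false

namespace Cfsg.Agent.H826.Rg

open QuadraticMap Module
open Cfsg.Agent.LieClassical.OrthCore Cfsg.Agent.LieClassical.OrthTrans
open Cfsg.Agent.LieClassical.OrthFinite (exists_sing_perp exists_sing_mem)

/-- counting modulo `r` -/
theorem card_modEq {α : Type*} [Finite α] {r : ℕ} (hr : r.Prime) (f : Equiv.Perm α) (hf : f ^ r = 1) :
    Nat.card α ≡ Nat.card {a // f a = a} [MOD r] := by
  classical
  have := Fintype.ofFinite α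
  have := Fact.mk hr
  let g : Function.End α := fun a => f a
  have h2 : ∀ n : ℕ, g ^ n = (fun a => (f ^ n) a : Function.End α) := by
    intro n
    induction n with
    | zero => rfl
    | succ n ih => rw [pow_succ, ih, pow_succ]; rfl
  have h := Equiv.Perm.card_fixedPoints_modEq (f := g) (p := r) (n := 1) (by
    rw [pow_one, h2, hf]
    rfl)
  rw [← Nat.card_eq_fintype_card, ← Nat.card_eq_fintype_card] at h
  exact h

/-- powers of `p` congruent modulo `r` -/
theorem dvd_of_modEq {p r n a b : ℕ} (hr : r.Prime) (hn : 0 < n) (hrn : orderOf (p : ZMod r) = n) (hab : b ≤ a)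
    (h : p ^ a ≡ p ^ b [MOD r]) : n ∣ a - b := by
  have := Fact.mk hr
  have hp0 : (p : ZMod r) ≠ 0 := by
    intro h0
    rw [h0] at hrn
    have : orderOf (0 : ZMod r) = 0 := by
      rw [orderOf_eq_zero_iff']
      intro n hn0
      rw [zero_pow hn0.ne']
      exact zero_ne_one
    omega
  rw [← ZMod.natCast_eq_natCast_iff, Nat.cast_pow, Nat.cast_pow] at h
  rw [← hrn]
  apply orderOf_dvd_of_pow_eq_one
  have h1 : (p : ZMod r) ^ b * (p : ZMod r) ^ (a - b) = (p : ZMod r) ^ b * 1 := by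
    rw [← pow_add, Nat.add_sub_cancel' hab, mul_one, h]
  exact mul_left_cancel₀ (pow_ne_zero _ hp0) h1

section L

variable {F V : Type*} [Field F] [AddCommGroup V] [Module F V] {Q : QuadraticForm F V}

/-- the fixed vectors -/
def fxv (y : V ≃ₗ[F] V) : Submodule F V := LinearMap.ker (y.toLinearMap - LinearMap.id)

theorem mem_fxv {y : V ≃ₗ[F] V} {v : V} : v ∈ fxv y ↔ y v = v := by
  rw [fxv, LinearMap.mem_ker, LinearMap.sub_apply, sub_eq_zero]
  rfl

/-- the fixed vectors of a group -/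
def fxG (N : Subgroup (V ≃ₗ[F] V)) : Submodule F V where
  carrier := {v | ∀ g ∈ N, g v = v}
  add_mem' {a b} ha hb g hg := by rw [map_add, ha g hg, hb g hg]
  zero_mem' g _ := map_zero g
  smul_mem' c x hx g hg := by rw [map_smul, hx g hg]

theorem mem_fxG {N : Subgroup (V ≃ₗ[F] V)} {v : V} : v ∈ fxG N ↔ ∀ g ∈ N, g v = v := Iff.rfl

variable [Finite F] [FiniteDimensional F V]

/-- **dimensions of invariant subspaces** -/
theorem dvd_dim {p f m r : ℕ} (hF : Nat.card F = p ^ f) (hr : r.Prime) (hfm : 0 < f * m)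
    (hrn : orderOf (p : ZMod r) = f * m) {y : V ≃ₗ[F] V} (hy : y ^ r = 1) {S : Submodule F V} (hS : ∀ s ∈ S, y s ∈ S) :
    m ∣ finrank F S - finrank F (S ⊓ fxv y : Submodule F V) := by
  have hfV : Finite V := Module.finite_of_finite F
  have hle : finrank F (S ⊓ fxv y : Submodule F V) ≤ finrank F S := Submodule.finrank_mono inf_le_left
  let g : S → S := fun s => ⟨y s, hS s s.2⟩
  have hgi : Function.Injective g := by
    intro a b h
    have h1 : y (a : V) = y b := congrArg Subtype.val h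
    exact Subtype.ext (y.injective h1)
  let e : Equiv.Perm S := Equiv.ofBijective g (Finite.injective_iff_bijective.1 hgi)
  have he : ∀ (n : ℕ) (s : S), (((e ^ n) s : S) : V) = (y ^ n) s := by
    intro n
    induction n with
    | zero => intro s; rfl
    | succ n ih =>
      intro s
      rw [pow_succ', pow_succ', Equiv.Perm.mul_apply]
      show y (((e ^ n) s : S) : V) = y ((y ^ n) s)
      rw [ih]
  have her : e ^ r = 1 := by
    ext s
    rw [he, hy]
    rfl
  have h1 := card_modEq hr e her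
  have h2 : Nat.card {a : S // e a = a} = Nat.card (S ⊓ fxv y : Submodule F V) := by
    refine Nat.card_congr
      { toFun := fun a => ⟨a.1.1, a.1.2, mem_fxv.2 (congrArg Subtype.val a.2)⟩
        invFun := fun a => ⟨⟨a.1, a.2.1⟩, Subtype.ext (mem_fxv.1 a.2.2)⟩
        left_inv := fun a => rfl
        right_inv := fun a => rfl }
  rw [h2, Module.natCard_eq_pow_finrank (K := F) (V := S),
    Module.natCard_eq_pow_finrank (K := F) (V := (S ⊓ fxv y : Submodule F V)), hF, ← pow_mul, ← pow_mul] at h1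
  have h3 := dvd_of_modEq hr hfm hrn (Nat.mul_le_mul_left f hle) h1
  rw [← Nat.mul_sub] at h3
  have hf0 : 0 < f := by
    rcases Nat.eq_zero_or_pos f with h | h
    · rw [h, zero_mul] at hfm; omega
    · exact h
  exact Nat.dvd_of_mul_dvd_mul_left hf0 h3

omit [Finite F] in
/-- the decomposition `V = C_V(y) + [V, y]` -/
theorem isCompl_fxv {r : ℕ} (hr0 : (r : F) ≠ 0) {y : V ≃ₗ[F] V} (hy : y ^ r = 1) :
    fxv y ⊔ LinearMap.range (y.toLinearMap - LinearMap.id) = ⊤ := by
  have hdis : fxv y ⊓ LinearMap.range (y.toLinearMap - LinearMap.id) = ⊥ := by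
    rw [eq_bot_iff]
    rintro x ⟨hx, z, rfl⟩
    have hx' : y (y z - z) = y z - z := mem_fxv.1 hx
    have hz : ∀ n : ℕ, (y ^ n) z = z + (n : F) • (y z - z) := by
      intro n
      induction n with
      | zero => simp
      | succ n ih =>
        rw [pow_succ']
        show y ((y ^ n) z) = _
        rw [ih, map_add, map_smul, hx', Nat.cast_succ]
        module
    have h1 := hz r
    rw [hy] at h1
    have h2 : (r : F) • (y z - z) = 0 := by
      have h3 : (1 : V ≃ₗ[F] V) z = z := rfl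
      rw [h3] at h1
      exact (left_eq_add.1 h1)
    rw [Submodule.mem_bot]
    exact (smul_eq_zero.1 h2).resolve_left hr0
  apply Submodule.eq_top_of_finrank_eq
  have h1 := LinearMap.finrank_range_add_finrank_ker (y.toLinearMap - LinearMap.id)
  have h2 := Submodule.finrank_sup_add_finrank_inf_eq (fxv y) (LinearMap.range (y.toLinearMap - LinearMap.id))
  rw [hdis, finrank_bot, add_zero] at h2
  rw [h2, ← h1, add_comm]
  rfl

/-- **an isometry of order `r` which fixes no vector of norm `c` fixes at most a plane** -/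
theorem fxv_small {r : ℕ} (hQ : Nondeg Q) (hr0 : (r : F) ≠ 0) {y : V ≃ₗ[F] V} (hyO : y ∈ O Q) (hy : y ^ r = 1) {c : F}
    (hfree : ∀ u, Q u = c → y u ≠ u) : finrank F (fxv y) ≤ 2 := by
  by_contra hcon
  obtain ⟨x, hx, hx0, hQx⟩ := exists_sing_mem (Q := Q) (fxv y) (by omega)
  -- `x` is not perpendicular to `fxv y`
  obtain ⟨z, hz, hzx⟩ : ∃ z ∈ fxv y, polar Q x z ≠ 0 := by
    by_contra hall
    push Not at hall
    apply hx0
    apply hQ
    intro w
    have hw : w ∈ fxv y ⊔ LinearMap.range (y.toLinearMap - LinearMap.id) := by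
      rw [isCompl_fxv hr0 hy]; exact Submodule.mem_top
    obtain ⟨a, ha, b, ⟨t, rfl⟩, rfl⟩ := Submodule.mem_sup.1 hw
    rw [polar_add_right, hall a ha, zero_add]
    show polar Q x (y t - t) = 0
    rw [polar_sub_right]
    nth_rewrite 1 [← mem_fxv.1 hx]
    rw [polar_map hyO, sub_self]
  obtain ⟨z1, hz1m, hxz1⟩ : ∃ z1 ∈ fxv y, polar Q x z1 = 1 :=
    ⟨(polar Q x z)⁻¹ • z, (fxv y).smul_mem _ hz, by rw [polar_smul_right, smul_eq_mul, inv_mul_cancel₀ hzx]⟩
  have hxx : polar Q x x = 0 := polar_self_of_sing hQx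
  have hv : Q (z1 + (c - Q z1) • x) = c := by
    rw [Q_add, QuadraticMap.map_smul, hQx, polar_smul_right, polar_comm, hxz1]
    simp
  exact hfree _ hv (mem_fxv.1 ((fxv y).add_mem hz1m ((fxv y).smul_mem _ hx)))

/-- a `p`-group has nonzero fixed vectors in every invariant subspace -/
theorem exists_fixed {p : ℕ} (hp : p.Prime) {f : ℕ} (hf : 0 < f) (hF : Nat.card F = p ^ f) {N : Subgroup (V ≃ₗ[F] V)}
    (hN : IsPGroup p N) {S : Submodule F V} (hS : ∀ g ∈ N, ∀ s ∈ S, g s ∈ S) (hS0 : S ≠ ⊥) :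
    ∃ s ∈ S, s ≠ 0 ∧ s ∈ fxG N := by
  have := Fact.mk hp
  have hfV : Finite V := Module.finite_of_finite F
  let _ : MulAction N S :=
    { smul := fun g s => ⟨g.1 s, hS _ g.2 _ s.2⟩
      one_smul := fun s => rfl
      mul_smul := fun g h s => rfl }
  have hdim : 0 < finrank F S := by
    rw [Module.finrank_pos_iff]
    exact Submodule.nontrivial_iff_ne_bot.2 hS0
  have hdvd : p ∣ Nat.card S := by
    rw [Module.natCard_eq_pow_finrank (K := F) (V := S), hF, ← pow_mul]
    exact dvd_pow_self p (Nat.mul_pos hf hdim).ne'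
  have h0 : (0 : S) ∈ MulAction.fixedPoints N S := fun g => Subtype.ext (map_zero g.1)
  obtain ⟨b, hb, hb0⟩ := hN.exists_fixed_point_of_prime_dvd_card_of_fixed_point S hdvd h0
  refine ⟨b, b.2, fun h => hb0 (Subtype.ext h.symm), fun g hg => ?_⟩
  exact congrArg Subtype.val (hb ⟨g, hg⟩)

/-- the perpendicular subspace -/
def pp (Q : QuadraticForm F V) (W : Submodule F V) : Submodule F V := LinearMap.BilinForm.orthogonal (polarBilin Q) W

omit [Finite F] [FiniteDimensional F V] in
theorem mem_pp {W : Submodule F V} {x : V} : x ∈ pp Q W ↔ ∀ w ∈ W, polar Q w x = 0 := Iff.rfl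

omit [Finite F] in
theorem finrank_pp (hQ : Nondeg Q) (W : Submodule F V) : finrank F (pp Q W) = finrank F V - finrank F W := by
  have hnd : LinearMap.BilinForm.Nondegenerate (polarBilin Q) :=
    ⟨fun x hx => hQ x hx, fun x hx => hQ x fun y => by rw [polar_comm]; exact hx y⟩
  exact LinearMap.BilinForm.finrank_orthogonal hnd W

/-- the linear data -/
structure LD (Q : QuadraticForm F V) (D : Subgroup (V ≃ₗ[F] V)) (p f m r : ℕ) (c : F) : Prop where
  nd : Nondeg Q
  prime : p.Prime
  cardF : Nat.card F = p ^ f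
  dim : finrank F V = 2 * m
  hm : 3 ≤ m
  le : D ≤ O Q
  hc : c ≠ 0
  free : ∀ g ∈ D, ∀ u, Q u = c → g u = u → g = 1
  rprime : r.Prime
  ord : orderOf (p : ZMod r) = f * m
  rD : r ∣ Nat.card D

/-- a normal `p`-subgroup -/
structure NP (D : Subgroup (V ≃ₗ[F] V)) (p : ℕ) (N : Subgroup (V ≃ₗ[F] V)) : Prop where
  le : N ≤ D
  norm : ∀ g ∈ D, ∀ n ∈ N, g * n * g⁻¹ ∈ N
  pgrp : IsPGroup p N
  ne : N ≠ ⊥

namespace LD

variable {D N : Subgroup (V ≃ₗ[F] V)} {p f m r : ℕ} {c : F} (h : LD Q D p f m r c)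
include h

theorem fpos : 0 < f := by
  rcases Nat.eq_zero_or_pos f with h0 | h0
  · have h1 := h.cardF
    rw [h0, pow_zero] at h1
    have h2 : 1 < Nat.card F := Finite.one_lt_card
    omega
  · exact h0

theorem fmpos : 0 < f * m := Nat.mul_pos h.fpos (by have := h.hm; omega)

theorem rnep : r ≠ p := by
  rintro rfl
  have h1 := h.ord
  have := Fact.mk h.rprime
  rw [ZMod.natCast_self] at h1
  have h2 : orderOf (0 : ZMod r) = 0 := by
    rw [orderOf_eq_zero_iff']
    intro n hn0
    rw [zero_pow hn0.ne']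
    exact zero_ne_one
  have h3 := h.fmpos
  omega

theorem charP : CharP F p := by
  have := Fact.mk h.prime
  have := Fintype.ofFinite F
  exact charP_of_card_eq_prime_pow (by rw [← Nat.card_eq_fintype_card]; exact h.cardF)

theorem rF : (r : F) ≠ 0 := by
  have := h.charP
  intro h0
  have h1 := (CharP.cast_eq_zero_iff F p r).1 h0
  exact h.rnep ((Nat.prime_dvd_prime_iff_eq h.prime h.rprime).1 h1).symm

theorem exists_y : ∃ y ∈ D, orderOf y = r := by
  have hfV : Finite V := Module.finite_of_finite F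
  have : Finite (V ≃ₗ[F] V) := Finite.of_injective (fun e : V ≃ₗ[F] V => (e : V → V)) DFunLike.coe_injective
  have := Fact.mk h.rprime
  obtain ⟨y, hy⟩ := exists_prime_orderOf_dvd_card' r h.rD
  exact ⟨y, y.2, by rw [Subgroup.orderOf_coe, hy]⟩

theorem fxv_eq_bot {y : V ≃ₗ[F] V} (hyD : y ∈ D) (hy : orderOf y = r) : fxv y = ⊥ := by
  have hyr : y ^ r = 1 := by rw [← hy, pow_orderOf_eq_one]
  have h1 := fxv_small h.nd h.rF (h.le hyD) hyr (c := c) (fun u hu h2 => by
    have h3 := h.free y hyD u hu h2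
    rw [h3, orderOf_one] at hy
    exact h.rprime.one_lt.ne hy)
  have h2 := dvd_dim h.cardF h.rprime h.fmpos h.ord hyr (S := ⊤) (fun s _ => Submodule.mem_top)
  rw [top_inf_eq, finrank_top, h.dim] at h2
  have h3 := h.hm
  obtain ⟨k, hk⟩ := h2
  have h4 : finrank F (fxv y) = 0 := by
    have h5 : k = 2 := by
      rcases Nat.lt_trichotomy k 2 with h6 | h6 | h6
      · have : m * k ≤ m * 1 := Nat.mul_le_mul_left m (by omega)
        omega
      · exact h6
      · have : m * 3 ≤ m * k := Nat.mul_le_mul_left m (by omega)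
        omega
    rw [h5] at hk
    omega
  exact Submodule.finrank_eq_zero.1 h4

/-- the dimension of an invariant subspace is a multiple of `m` -/
theorem dvd_finrank {y : V ≃ₗ[F] V} (hyD : y ∈ D) (hy : orderOf y = r) {S : Submodule F V} (hS : ∀ s ∈ S, y s ∈ S) :
    m ∣ finrank F S := by
  have h1 := dvd_dim h.cardF h.rprime h.fmpos h.ord (by rw [← hy, pow_orderOf_eq_one]) hS
  rwa [h.fxv_eq_bot hyD hy, inf_bot_eq, finrank_bot, Nat.sub_zero] at h1

theorem finrank_cases {y : V ≃ₗ[F] V} (hyD : y ∈ D) (hy : orderOf y = r) {S : Submodule F V} (hS : ∀ s ∈ S, y s ∈ S) :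
    S = ⊥ ∨ finrank F S = m ∨ S = ⊤ := by
  obtain ⟨k, hk⟩ := h.dvd_finrank hyD hy hS
  have h1 := Submodule.finrank_le S
  rw [h.dim, hk] at h1
  have h2 := h.hm
  have h3 : k ≤ 2 := by
    by_contra hcon
    have : m * 3 ≤ m * k := Nat.mul_le_mul_left m (by omega)
    omega
  have h4 : k = 0 ∨ k = 1 ∨ k = 2 := by omega
  rcases h4 with rfl | rfl | rfl
  · left
    exact Submodule.finrank_eq_zero.1 (by rw [hk, mul_zero])
  · right; left
    rw [hk, mul_one]
  · right; right
    apply Submodule.eq_top_of_finrank_eq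
    rw [hk, h.dim, mul_comm]

/-- **the fixed space of a normal `p`-subgroup** -/
theorem finrank_fxG (hN : NP D p N) : finrank F (fxG N) = m := by
  obtain ⟨y, hyD, hy⟩ := h.exists_y
  rcases h.finrank_cases hyD hy (S := fxG N) (fun v hv g hg => by
    have h1 := hN.norm _ (D.inv_mem hyD) g hg
    have h2 := hv _ h1
    have h3 : (y⁻¹ * g * y⁻¹⁻¹) v = y.symm (g (y v)) := by rw [inv_inv]; rfl
    rw [h3, LinearEquiv.symm_apply_eq] at h2
    exact h2) with h1 | h1 | h1
  · exfalso
    obtain ⟨s, -, hs0, hs⟩ := exists_fixed h.prime h.fpos h.cardF hN.pgrp (S := ⊤) (fun g _ s _ => Submodule.mem_top)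
      (by
        intro h2
        have h3 := h.dim
        have h4 := h.hm
        rw [← finrank_top, h2, finrank_bot] at h3
        omega)
    rw [h1, Submodule.mem_bot] at hs
    exact hs0 hs
  · exact h1
  · exfalso
    apply hN.ne
    rw [Subgroup.eq_bot_iff_forall]
    intro g hg
    ext v
    have h2 : v ∈ fxG N := by rw [h1]; exact Submodule.mem_top
    exact h2 g hg

/-- **the fixed space is its own perp** -/
theorem pp_fxG (hN : NP D p N) : pp Q (fxG N) = fxG N := by
  obtain ⟨y, hyD, hy⟩ := h.exists_y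
  have hW := h.finrank_fxG hN
  have h2m := h.hm
  have hinv : ∀ v ∈ fxG N, ∀ g ∈ D, g v ∈ fxG N := by
    intro v hv g hg n hn
    have h1 := hN.norm _ (D.inv_mem hg) n hn
    have h2 := hv _ h1
    have h3 : (g⁻¹ * n * g⁻¹⁻¹) v = g.symm (n (g v)) := by rw [inv_inv]; rfl
    rw [h3, LinearEquiv.symm_apply_eq] at h2
    exact h2
  have hpinv : ∀ v ∈ pp Q (fxG N), ∀ g ∈ D, g v ∈ pp Q (fxG N) := by
    intro v hv g hg w hw
    have h1 := hinv w hw _ (D.inv_mem hg)
    have h2 := hv _ h1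
    rw [polarBilin_apply_apply, ← polar_map (h.le hg)] at h2
    have h3 : g (g⁻¹ w) = w := g.apply_symm_apply w
    rw [h3] at h2
    exact h2
  have hpr : finrank F (pp Q (fxG N)) = m := by rw [finrank_pp h.nd, h.dim, hW]; omega
  rcases h.finrank_cases hyD hy (S := fxG N ⊓ pp Q (fxG N)) (fun v hv => ⟨hinv v hv.1 y hyD, hpinv v hv.2 y hyD⟩) with
    h1 | h1 | h1
  · exfalso
    obtain ⟨s, hs1, hs0, hs⟩ := exists_fixed h.prime h.fpos h.cardF hN.pgrp (S := pp Q (fxG N))
      (fun g hg s hs => hpinv s hs g (hN.le hg)) (by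
        intro h2
        rw [h2, finrank_bot] at hpr
        omega)
    have h3 : s ∈ fxG N ⊓ pp Q (fxG N) := ⟨hs, hs1⟩
    rw [h1, Submodule.mem_bot] at h3
    exact hs0 h3
  · have h3 : fxG N ⊓ pp Q (fxG N) = fxG N := Submodule.eq_of_le_of_finrank_eq inf_le_left (by rw [h1, hW])
    have h4 : fxG N ⊓ pp Q (fxG N) = pp Q (fxG N) := Submodule.eq_of_le_of_finrank_eq inf_le_right (by rw [h1, hpr])
    rw [← h4, h3]
  · exfalso
    have h3 : finrank F (fxG N ⊓ pp Q (fxG N) : Submodule F V) ≤ finrank F (fxG N) := Submodule.finrank_mono inf_le_left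
    rw [h1, finrank_top, h.dim, hW] at h3
    omega

/-- **the fixed space is totally singular** -/
theorem sing_fxG (hN : NP D p N) : ∀ w ∈ fxG N, Q w = 0 := by
  obtain ⟨y, hyD, hy⟩ := h.exists_y
  have hW := h.finrank_fxG hN
  have hpp := h.pp_fxG hN
  have hB : ∀ w ∈ fxG N, ∀ w' ∈ fxG N, polar Q w w' = 0 := by
    intro w hw w' hw'
    rw [← hpp] at hw'
    exact hw' w hw
  let Z : Submodule F V :=
    { carrier := {w | w ∈ fxG N ∧ Q w = 0}
      add_mem' := by
        rintro a b ⟨ha, ha'⟩ ⟨hb, hb'⟩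
        exact ⟨(fxG N).add_mem ha hb, by rw [Q_add, ha', hb', hB a ha b hb, add_zero, add_zero]⟩
      zero_mem' := ⟨(fxG N).zero_mem, QuadraticMap.map_zero Q⟩
      smul_mem' := by
        rintro a b ⟨hb, hb'⟩
        exact ⟨(fxG N).smul_mem a hb, by rw [QuadraticMap.map_smul, hb', smul_zero]⟩ }
  have hZ : Z ≤ fxG N := fun w hw => hw.1
  rcases h.finrank_cases hyD hy (S := Z) (fun v hv => ⟨fun g hg => by
    have h1 := hN.norm _ (D.inv_mem hyD) g hg
    have h2 := hv.1 _ h1
    have h3 : (y⁻¹ * g * y⁻¹⁻¹) v = y.symm (g (y v)) := by rw [inv_inv]; rfl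
    rw [h3, LinearEquiv.symm_apply_eq] at h2
    exact h2, by rw [mem_O.1 (h.le hyD)]; exact hv.2⟩) with h1 | h1 | h1
  · exfalso
    obtain ⟨w, hw, hw0, hQw⟩ := exists_sing_mem (Q := Q) (fxG N) (by rw [hW]; exact h.hm)
    have h2 : w ∈ Z := ⟨hw, hQw⟩
    rw [h1, Submodule.mem_bot] at h2
    exact hw0 h2
  · have h2 : Z = fxG N := Submodule.eq_of_le_of_finrank_eq hZ (by rw [h1, hW])
    intro w hw
    rw [← h2] at hw
    exact hw.2
  · intro w hw
    have h2 : w ∈ Z := by rw [h1]; exact Submodule.mem_top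
    exact h2.2

/-- invariance of the fixed space of a normal subgroup -/
theorem fxG_inv (hN : NP D p N) {v : V} (hv : v ∈ fxG N) {g : V ≃ₗ[F] V} (hg : g ∈ D) : g v ∈ fxG N := by
  intro n hn
  have h1 := hN.norm _ (D.inv_mem hg) n hn
  have h2 := hv _ h1
  have h3 : (g⁻¹ * n * g⁻¹⁻¹) v = g.symm (n (g v)) := by rw [inv_inv]; rfl
  rw [h3, LinearEquiv.symm_apply_eq] at h2
  exact h2

/-- all normal `p`-subgroups have the same fixed space -/
theorem fxG_eq {N' : Subgroup (V ≃ₗ[F] V)} (hN : NP D p N) (hN' : NP D p N') : fxG N = fxG N' := by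
  have hsup : NP D p (N ⊔ N') := by
    refine ⟨sup_le hN.le hN'.le, ?_, ?_, ?_⟩
    · intro g hg n hn
      have h1 : N ⊔ N' ≤ (N ⊔ N').comap (MulAut.conj g).toMonoidHom := by
        refine sup_le ?_ ?_
        · intro x hx
          exact (le_sup_left : N ≤ N ⊔ N') (hN.norm g hg x hx)
        · intro x hx
          exact (le_sup_right : N' ≤ N ⊔ N') (hN'.norm g hg x hx)
      exact h1 hn
    · apply IsPGroup.to_sup_of_normal_right' hN.pgrp hN'.pgrp
      intro g hg
      rw [Subgroup.mem_normalizer_iff]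
      intro n
      constructor
      · intro hn
        exact hN'.norm g (hN.le hg) n hn
      · intro hn
        have := hN'.norm g⁻¹ (D.inv_mem (hN.le hg)) _ hn
        have e : g⁻¹ * (g * n * g⁻¹) * g⁻¹⁻¹ = n := by group
        rwa [e] at this
    · intro h1
      apply hN.ne
      rw [eq_bot_iff, ← h1]
      exact le_sup_left
  have h1 : fxG (N ⊔ N') ≤ fxG N := fun v hv g hg => hv g ((le_sup_left : N ≤ N ⊔ N') hg)
  have h2 : fxG (N ⊔ N') ≤ fxG N' := fun v hv g hg => hv g ((le_sup_right : N' ≤ N ⊔ N') hg)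
  rw [← Submodule.eq_of_le_of_finrank_eq h1 (by rw [h.finrank_fxG hsup, h.finrank_fxG hN]),
    Submodule.eq_of_le_of_finrank_eq h2 (by rw [h.finrank_fxG hsup, h.finrank_fxG hN'])]

/-- an isometry trivial on `V / W` is trivial on `W` -/
theorem triv_on (hN : NP D p N) {a : V ≃ₗ[F] V} (haO : a ∈ O Q) (ha : ∀ v, a v - v ∈ fxG N) : ∀ w ∈ fxG N, a w = w := by
  have hpp := h.pp_fxG hN
  intro w hw
  have h1 : a w - w = 0 := by
    apply h.nd
    intro v
    have h3 : polar Q (a w) (a v - v) = 0 := by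
      have h4 : a w ∈ fxG N := by
        have := (fxG N).add_mem (ha w) hw
        rwa [sub_add_cancel] at this
      have h5 := ha v
      rw [← hpp] at h5
      exact h5 _ h4
    rw [polar_sub_right, polar_map haO] at h3
    rw [polar_sub_left]
    linear_combination -h3
  exact sub_eq_zero.1 h1

/-- the elements of `D` trivial on `V / W` -/
def AA (D : Subgroup (V ≃ₗ[F] V)) (W : Submodule F V) : Subgroup D where
  carrier := {a | ∀ v, (a : V ≃ₗ[F] V) v - v ∈ W}
  mul_mem' {a b} ha hb v := by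
    have h1 : ((a * b : D) : V ≃ₗ[F] V) v - v = ((a : V ≃ₗ[F] V) ((b : V ≃ₗ[F] V) v) - (b : V ≃ₗ[F] V) v) +
        ((b : V ≃ₗ[F] V) v - v) := by
      rw [sub_add_sub_cancel]; rfl
    rw [h1]
    exact W.add_mem (ha _) (hb v)
  one_mem' v := by
    show v - v ∈ W
    rw [sub_self]; exact W.zero_mem
  inv_mem' {a} ha v := by
    have h1 : ((a⁻¹ : D) : V ≃ₗ[F] V) v - v = -((a : V ≃ₗ[F] V) ((a : V ≃ₗ[F] V).symm v) - (a : V ≃ₗ[F] V).symm v) := by
      rw [LinearEquiv.apply_symm_apply, neg_sub]; rfl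
    rw [h1]
    exact W.neg_mem (ha _)

omit h in
theorem mem_AA {W : Submodule F V} {a : D} : a ∈ AA D W ↔ ∀ v, (a : V ≃ₗ[F] V) v - v ∈ W := Iff.rfl

/-- an isometry trivial on `V / W` has order dividing `p` -/
theorem pow_p (hN : NP D p N) {a : V ≃ₗ[F] V} (haO : a ∈ O Q) (ha : ∀ v, a v - v ∈ fxG N) : a ^ p = 1 := by
  have h1 := h.triv_on hN haO ha
  have := h.charP
  have hz : ∀ (n : ℕ) (v : V), (a ^ n) v = v + (n : F) • (a v - v) := by
    intro n v
    induction n with
    | zero => simp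
    | succ n ih =>
      rw [pow_succ']
      show a ((a ^ n) v) = _
      rw [ih, map_add, map_smul, h1 _ (ha v), Nat.cast_succ]
      module
  ext v
  rw [hz, CharP.cast_eq_zero, zero_smul, add_zero]
  rfl

theorem isPGroup_AA (hN : NP D p N) : IsPGroup p (AA D (fxG N)) := by
  intro a
  refine ⟨1, ?_⟩
  rw [pow_one]
  apply Subtype.ext
  apply Subtype.ext
  exact h.pow_p hN (h.le a.1.2) a.2

theorem AA_ne_bot (hN : NP D p N) : AA D (fxG N) ≠ ⊥ := by
  intro h1
  apply hN.ne
  rw [Subgroup.eq_bot_iff_forall]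
  intro n hn
  have h2 : (⟨n, hN.le hn⟩ : D) ∈ AA D (fxG N) := by
    intro v
    rw [← h.pp_fxG hN]
    intro w hw
    have h3 : polar Q w (n v) = polar Q w v := by
      have h4 := polar_map (h.le (hN.le hn)) w v
      rw [hw n hn] at h4
      exact h4
    show polar Q w (n v - v) = 0
    rw [polar_sub_right, h3, sub_self]
  rw [h1, Subgroup.mem_bot] at h2
  exact congrArg Subtype.val h2

/-- vectors of `W` dual to the cosets of `W` -/
theorem exists_omega (hN : NP D p N) : ∃ ω : V ⧸ fxG N → V, ∀ u, u ∉ fxG N →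
    ω (Submodule.Quotient.mk u) ∈ fxG N ∧ polar Q u (ω (Submodule.Quotient.mk u)) = 1 := by
  classical
  have hpp := h.pp_fxG hN
  have hB : ∀ w ∈ fxG N, ∀ w' ∈ fxG N, polar Q w w' = 0 := by
    intro w hw w' hw'
    rw [← hpp] at hw'
    exact hw' w hw
  have key : ∀ x : V ⧸ fxG N, ∃ w, ∀ u, Submodule.Quotient.mk u = x → u ∉ fxG N → w ∈ fxG N ∧ polar Q u w = 1 := by
    intro x
    obtain ⟨u0, rfl⟩ := Submodule.Quotient.mk_surjective _ x
    by_cases hu0 : u0 ∈ fxG N
    · refine ⟨0, fun u hu hun => ?_⟩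
      exfalso
      apply hun
      rw [Submodule.Quotient.eq] at hu
      have := (fxG N).add_mem hu hu0
      rwa [sub_add_cancel] at this
    · obtain ⟨w, hw, hw0⟩ : ∃ w ∈ fxG N, polar Q w u0 ≠ 0 := by
        by_contra hcon
        push Not at hcon
        apply hu0
        rw [← hpp]
        exact hcon
      have hw0' : polar Q u0 w ≠ 0 := by rw [polar_comm]; exact hw0
      refine ⟨(polar Q u0 w)⁻¹ • w, fun u hu _ => ⟨(fxG N).smul_mem _ hw, ?_⟩⟩
      rw [Submodule.Quotient.eq] at hu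
      have h1 : polar Q u w = polar Q u0 w := by
        have h2 := hB _ hu w hw
        rw [polar_sub_left] at h2
        exact sub_eq_zero.1 h2
      rw [polar_smul_right, smul_eq_mul, h1, inv_mul_cancel₀ hw0']
  choose ω hω using key
  exact ⟨ω, fun u hu => hω _ u rfl hu⟩

/-- **the number of vectors of norm `c`** -/
theorem card_norm (hN : NP D p N) : Nat.card {u : V // Q u = c} = (p ^ (f * m) - 1) * p ^ (f * (m - 1)) := by
  classical
  have hfV : Finite V := Module.finite_of_finite F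
  obtain ⟨ω, hω⟩ := h.exists_omega hN
  have hs := h.sing_fxG hN
  have hW := h.finrank_fxG hN
  have hnW : ∀ u, Q u = c → u ∉ fxG N := fun u hu hu' => h.hc (by rw [← hu, hs u hu'])
  -- adding an element of `W`
  have hmk : ∀ (u w : V), w ∈ fxG N → (Submodule.Quotient.mk (u + w) : V ⧸ fxG N) = Submodule.Quotient.mk u := by
    intro u w hw
    rw [Submodule.Quotient.eq, add_sub_cancel_left]
    exact hw
  have hadd : ∀ (u : V), u ∉ fxG N → ∀ t : F, u + t • ω (Submodule.Quotient.mk u) ∉ fxG N := by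
    intro u hu t h1
    apply hu
    have := (fxG N).sub_mem h1 ((fxG N).smul_mem t (hω u hu).1)
    rwa [add_sub_cancel_right] at this
  have hQ : ∀ (u : V), u ∉ fxG N → ∀ t : F, Q (u + t • ω (Submodule.Quotient.mk u)) = Q u + t := by
    intro u hu t
    rw [Q_add, QuadraticMap.map_smul, hs _ (hω u hu).1, polar_smul_right, (hω u hu).2]
    simp
  let e : {u : V // u ∉ fxG N} ≃ {u : V // Q u = c} × F :=
    { toFun := fun u => (⟨u.1 + (c - Q u.1) • ω (Submodule.Quotient.mk u.1), by
        rw [hQ _ u.2, add_sub_cancel]⟩, Q u.1)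
      invFun := fun x => ⟨x.1.1 + (x.2 - c) • ω (Submodule.Quotient.mk x.1.1), hadd _ (hnW _ x.1.2) _⟩
      left_inv := fun u => by
        apply Subtype.ext
        show u.1 + (c - Q u.1) • ω (Submodule.Quotient.mk u.1) +
          (Q u.1 - c) • ω (Submodule.Quotient.mk (u.1 + (c - Q u.1) • ω (Submodule.Quotient.mk u.1))) = u.1
        rw [hmk _ _ ((fxG N).smul_mem _ (hω u.1 u.2).1)]
        module
      right_inv := fun x => by
        obtain ⟨⟨u, hu⟩, t⟩ := x
        have h1 : Q (u + (t - c) • ω (Submodule.Quotient.mk u)) = t := by rw [hQ _ (hnW u hu), hu]; ring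
        refine Prod.ext (Subtype.ext ?_) h1
        show u + (t - c) • ω (Submodule.Quotient.mk u) + (c - Q (u + (t - c) • ω (Submodule.Quotient.mk u))) •
          ω (Submodule.Quotient.mk (u + (t - c) • ω (Submodule.Quotient.mk u))) = u
        rw [h1, hmk _ _ ((fxG N).smul_mem _ (hω u (hnW u hu)).1)]
        module }
  have h1 := Nat.card_congr e
  rw [Nat.card_prod] at h1
  have h2 : Nat.card {u : V // u ∉ fxG N} = p ^ (2 * (f * m)) - p ^ (f * m) := by
    have h3 : Nat.card {u : V // u ∉ fxG N} = Nat.card V - Nat.card (fxG N) := by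
      have := Fintype.ofFinite V
      have := Fintype.ofFinite (fxG N)
      rw [Nat.card_eq_fintype_card, Nat.card_eq_fintype_card, Nat.card_eq_fintype_card, Fintype.card_subtype_compl]
    rw [h3, Module.natCard_eq_pow_finrank (K := F) (V := V), Module.natCard_eq_pow_finrank (K := F) (V := fxG N), h.cardF,
      h.dim, hW, ← pow_mul, ← pow_mul]
    congr 2
    ring
  rw [h2, h.cardF] at h1
  have hq : 0 < p ^ f := Nat.pow_pos h.prime.pos
  apply Nat.eq_of_mul_eq_mul_right hq
  rw [← h1, mul_assoc, ← pow_add]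
  have h4 : f * (m - 1) + f = f * m := by
    obtain ⟨k, hk⟩ : ∃ k, m = k + 1 := ⟨m - 1, by have := h.hm; omega⟩
    rw [hk, Nat.add_sub_cancel]
    ring
  rw [h4, Nat.sub_mul, one_mul, ← pow_add, two_mul]

/-- **`|D|` divides `q ^ (m - 1) (q ^ m - 1)`** -/
theorem card_dvd (hN : NP D p N) : Nat.card D ∣ p ^ (f * (m - 1)) * (p ^ (f * m) - 1) := by
  have hfV : Finite V := Module.finite_of_finite F
  rw [mul_comm, ← h.card_norm hN]
  let _ : MulAction D {u : V // Q u = c} :=
    { smul := fun g u => ⟨(g : V ≃ₗ[F] V) u.1, by rw [mem_O.1 (h.le g.2)]; exact u.2⟩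
      one_smul := fun u => rfl
      mul_smul := fun a b u => rfl }
  have hst : ∀ u : {u : V // Q u = c}, MulAction.stabilizer D u = ⊥ := by
    intro u
    rw [Subgroup.eq_bot_iff_forall]
    intro g hg
    apply Subtype.ext
    exact h.free g g.2 u.1 u.2 (congrArg Subtype.val hg)
  have e := MulAction.selfEquivOrbitsQuotientProd hst
  rw [Nat.card_congr e, Nat.card_prod]
  exact Dvd.intro_left _ rfl

/-- the order of the `p`-subgroups of `D` -/
theorem card_le_of_pgroup (hN : NP D p N) {A : Subgroup D} (hA : IsPGroup p A) :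
    ∃ a, Nat.card A = p ^ a ∧ a ≤ f * (m - 1) := by
  have hfV : Finite V := Module.finite_of_finite F
  have : Finite (V ≃ₗ[F] V) := Finite.of_injective (fun e : V ≃ₗ[F] V => (e : V → V)) DFunLike.coe_injective
  have := Fact.mk h.prime
  obtain ⟨a, ha⟩ := IsPGroup.iff_card.1 hA
  refine ⟨a, ha, ?_⟩
  have h1 : p ^ a ∣ p ^ (f * (m - 1)) * (p ^ (f * m) - 1) := by
    rw [← ha]
    exact (Subgroup.card_subgroup_dvd_card A).trans (h.card_dvd hN)
  have h2 : Nat.Coprime (p ^ a) (p ^ (f * m) - 1) := by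
    apply Nat.Coprime.pow_left
    rw [Nat.Prime.coprime_iff_not_dvd h.prime]
    intro h3
    have h4 : p ∣ p ^ (f * m) := dvd_pow_self p h.fmpos.ne'
    have h5 : 1 ≤ p ^ (f * m) := Nat.one_le_pow _ _ h.prime.pos
    have h6 : p ∣ p ^ (f * m) - (p ^ (f * m) - 1) := Nat.dvd_sub h4 h3
    have h7 : p ^ (f * m) - (p ^ (f * m) - 1) = 1 := by omega
    rw [h7] at h6
    exact h.prime.one_lt.ne' (Nat.dvd_one.1 h6)
  have h3 := h2.dvd_of_dvd_mul_right h1
  exact (Nat.pow_dvd_pow_iff_le_right h.prime.one_lt).1 h3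

theorem card_AA_lt (hN : NP D p N) : Nat.card (AA D (fxG N)) < p ^ (f * m) := by
  obtain ⟨a, ha, hle⟩ := h.card_le_of_pgroup hN (h.isPGroup_AA hN)
  rw [ha]
  apply Nat.pow_lt_pow_right h.prime.one_lt
  refine lt_of_le_of_lt hle ?_
  exact Nat.mul_lt_mul_of_pos_left (by have := h.hm; omega) h.fpos

/-- `A` is normal in `D` -/
theorem AA_conj (hN : NP D p N) (g a : D) (ha : a ∈ AA D (fxG N)) : g * a * g⁻¹ ∈ AA D (fxG N) := by
  intro v
  have h1 : ((g * a * g⁻¹ : D) : V ≃ₗ[F] V) v - v = (g : V ≃ₗ[F] V) ((a : V ≃ₗ[F] V) ((g : V ≃ₗ[F] V).symm v) -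
      (g : V ≃ₗ[F] V).symm v) := by
    rw [map_sub, LinearEquiv.apply_symm_apply]; rfl
  rw [h1]
  exact h.fxG_inv hN (ha _) g.2

/-- **an element of order `r` centralizes `A`** -/
theorem comm_AA (hN : NP D p N) {y : D} (hy : orderOf y = r) : ∀ a ∈ AA D (fxG N), y * a * y⁻¹ = a := by
  have hfV : Finite V := Module.finite_of_finite F
  have : Finite (V ≃ₗ[F] V) := Finite.of_injective (fun e : V ≃ₗ[F] V => (e : V → V)) DFunLike.coe_injective
  have := Fact.mk h.prime
  set A := AA D (fxG N) with hA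
  let g : A → A := fun a => ⟨y * a * y⁻¹, h.AA_conj hN y a a.2⟩
  have hgi : Function.Injective g := by
    intro a b hab
    have h1 : y * (a : D) * y⁻¹ = y * b * y⁻¹ := congrArg Subtype.val hab
    exact Subtype.ext (mul_left_cancel (mul_right_cancel h1))
  let e : Equiv.Perm A := Equiv.ofBijective g (Finite.injective_iff_bijective.1 hgi)
  have he : ∀ (n : ℕ) (a : A), (((e ^ n) a : A) : D) = y ^ n * a * (y ^ n)⁻¹ := by
    intro n
    induction n with
    | zero => intro a; simp
    | succ n ih =>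
      intro a
      rw [pow_succ', pow_succ', Equiv.Perm.mul_apply]
      show y * (((e ^ n) a : A) : D) * y⁻¹ = _
      rw [ih]
      group
  have her : e ^ r = 1 := by
    ext a
    rw [he, ← hy, pow_orderOf_eq_one]
    simp
  have h1 := card_modEq h.rprime e her
  let C : Subgroup A := (Subgroup.centralizer {y}).subgroupOf A
  have h2 : Nat.card {a : A // e a = a} = Nat.card C := by
    refine Nat.card_congr (Equiv.subtypeEquivRight fun a => ?_)
    have h3 : (e a = a) ↔ y * (a : D) * y⁻¹ = a := ⟨fun h => congrArg Subtype.val h, fun h => Subtype.ext h⟩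
    rw [h3]
    show _ ↔ (a : D) ∈ Subgroup.centralizer {y}
    rw [Subgroup.mem_centralizer_singleton_iff, mul_inv_eq_iff_eq_mul]
    exact eq_comm
  obtain ⟨a, ha, hle⟩ := h.card_le_of_pgroup hN (h.isPGroup_AA hN)
  obtain ⟨b, hb⟩ := IsPGroup.iff_card.1 ((h.isPGroup_AA hN).to_subgroup C)
  have hba : b ≤ a := by
    rw [← Nat.pow_dvd_pow_iff_le_right h.prime.one_lt, ← ha, ← hb]
    exact Subgroup.card_subgroup_dvd_card C
  rw [h2, ha, hb] at h1
  have h3 := dvd_of_modEq h.rprime h.fmpos h.ord hba h1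
  have h4 : f * (m - 1) < f * m := Nat.mul_lt_mul_of_pos_left (by have := h.hm; omega) h.fpos
  have h5 : a - b = 0 := Nat.eq_zero_of_dvd_of_lt h3 (by omega)
  have h6 : a = b := by omega
  have h7 : C = ⊤ := by
    apply Subgroup.eq_top_of_card_eq
    rw [hb, ha, h6]
  intro x hx
  have h8 : (⟨x, hx⟩ : A) ∈ C := by rw [h7]; exact Subgroup.mem_top _
  have h9 : x ∈ Subgroup.centralizer {y} := h8
  rw [Subgroup.mem_centralizer_singleton_iff] at h9
  rw [← h9, mul_inv_cancel_right]

/-- **`C_V(a) = W` for `1 ≠ a ∈ A`** -/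
theorem fix_AA (hN : NP D p N) {a : D} (ha : a ∈ AA D (fxG N)) (ha1 : a ≠ 1) {v : V} (hv : (a : V ≃ₗ[F] V) v = v) :
    v ∈ fxG N := by
  obtain ⟨y, hyD, hy⟩ := h.exists_y
  have hy' : orderOf (⟨y, hyD⟩ : D) = r := by rw [← hy, ← Subgroup.orderOf_coe]
  have hc := h.comm_AA hN hy' a ha
  have hle : fxG N ≤ fxv (a : V ≃ₗ[F] V) := fun w hw => mem_fxv.2 (h.triv_on hN (h.le a.2) ha w hw)
  rcases h.finrank_cases hyD hy (S := fxv (a : V ≃ₗ[F] V)) (fun s hs => by
    rw [mem_fxv] at hs ⊢
    have h1 : ((a : V ≃ₗ[F] V) * y) = y * a := by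
      have h2 := congrArg Subtype.val (mul_inv_eq_iff_eq_mul.1 hc)
      exact h2.symm
    have h2 : (a : V ≃ₗ[F] V) (y s) = ((a : V ≃ₗ[F] V) * y) s := rfl
    rw [h2, h1]
    show y ((a : V ≃ₗ[F] V) s) = y s
    rw [hs]) with h1 | h1 | h1
  · exfalso
    rw [h1, le_bot_iff] at hle
    have h2 := h.finrank_fxG hN
    rw [hle, finrank_bot] at h2
    have := h.hm
    omega
  · rw [Submodule.eq_of_le_of_finrank_eq hle (by rw [h1, h.finrank_fxG hN])]
    exact mem_fxv.2 hv
  · exfalso
    apply ha1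
    apply Subtype.ext
    ext w
    have h2 : w ∈ fxv (a : V ≃ₗ[F] V) := by rw [h1]; exact Submodule.mem_top
    exact mem_fxv.1 h2

end LD

end L

end Cfsg.Agent.H826.Rg
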